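import Cfsg.Agent.H380.RC.Rules
import Cfsg.Agent.H106.RC.Use
import Cfsg.Agent.H199.PslField
import Cfsg.Agent.S2697
import Cfsg.Agent.LieClassical.SLGen

/-!
# S3510, linear row: the homomorphism `G → Aut(PSL_n(F))` (helper930)

`cS hN e : G →* MulAut S` : the action of `G` on the normal subgroup `N ≅ S`.
-/

set_option autoImplicit false

namespace Cfsg.Agent.H930.RC

open Cfsg.Agent.H106.RC MulAction
open Cfsg.Agent.ClassicalGeometry.AutPSL.Root Cfsg.Agent.ClassicalGeometry.AutPSL.Auto
open Cfsg.Agent.H199.PslAut Cfsg.Agent.H199.PslField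

section cS

variable {G S : Type*} [Group G] [Group S] {N : Subgroup G}

/-- the action of `G` on the normal subgroup `N ≅ S` -/
def cS (hN : N.Normal) (e : N ≃* S) : G →* MulAut S :=
  (MulAut.congr e).toMonoidHom.comp (@MulAut.conjNormal G _ N hN)

theorem cS_apply (hN : N.Normal) (e : N ≃* S) (g : G) (s : S) :
    cS hN e g s = e ⟨g * (e.symm s : N) * g⁻¹, hN.conj_mem _ (e.symm s).2 g⟩ := rfl

theorem cS_spec (hN : N.Normal) (e : N ≃* S) (g : G) (s : S) :
    ((e.symm (cS hN e g s) : N) : G) = g * (e.symm s : N) * g⁻¹ := by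
  rw [cS_apply, MulEquiv.symm_apply_apply]

theorem cS_coe (hN : N.Normal) (e : N ≃* S) (n : N) : cS hN e n = MulAut.conj (e n) := by
  apply MulEquiv.ext
  intro s
  rw [MulAut.conj_apply, ← e.injective.eq_iff.2 rfl]
  apply e.symm.injective
  apply Subtype.ext
  rw [cS_spec, map_mul, map_mul, map_inv, MulEquiv.symm_apply_apply]
  rfl

theorem cS_inj (hN : N.Normal) (e : N ≃* S) (hc : Subgroup.centralizer (N : Set G) = ⊥) :
    Function.Injective (cS hN e) := by
  rw [injective_iff_map_eq_one]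
  intro g hg
  rw [← Subgroup.mem_bot, ← hc, Subgroup.mem_centralizer_iff]
  intro n hn
  have h1 := cS_spec hN e g (e ⟨n, hn⟩)
  rw [hg, MulAut.one_apply, MulEquiv.symm_apply_apply] at h1
  change n = g * n * g⁻¹ at h1
  rw [eq_mul_inv_iff_mul_eq] at h1
  exact h1

/-- change of the identification `N ≅ S` -/
theorem cS_trans (hN : N.Normal) (e : N ≃* S) (α : MulAut S) (g : G) :
    cS hN (e.trans α) g = α * cS hN e g * α⁻¹ := by
  apply MulEquiv.ext
  intro s
  rfl

end cS

end Cfsg.Agent.H930.RC
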