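import Cfsg.Agent.H930.RC.F42a

/-!
# S3510, box A5, `(n, q_0) = (4, 2)`, `q = 2^r`, `r ≥ 5` (helper930)

The field automorphism is replaced by an element of a torus of prime order not dividing `|GL_4(2)|`.
-/

set_option autoImplicit false

namespace Cfsg.Agent.H930.RC

open Cfsg.Agent.H106.RC MulAction Matrix
open Cfsg.Agent.ClassicalGeometry.AutPSL.Root Cfsg.Agent.ClassicalGeometry.AutPSL.Auto
open Cfsg.Agent.H199.PslAut Cfsg.Agent.H199.PslField

section nt

theorem exists_prime_dvd {r : ℕ} (hr : r.Prime) (h5 : 5 ≤ r) :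
    ∃ s : ℕ, s.Prime ∧ s ∣ 2 ^ r + 1 ∧ s ≠ 2 ∧ s ≠ 3 ∧ s ≠ 5 ∧ s ≠ 7 := by
  have h1 : r % 12 = 1 ∨ r % 12 = 5 ∨ r % 12 = 7 ∨ r % 12 = 11 := by
    have h2 : ¬ 2 ∣ r := fun h => by
      have := (Nat.prime_dvd_prime_iff_eq Nat.prime_two hr).1 h
      omega
    have h3 : ¬ 3 ∣ r := fun h => by
      have := (Nat.prime_dvd_prime_iff_eq Nat.prime_three hr).1 h
      omega
    omega
  have h2 : 2 ^ r % 315 = 2 ^ (r % 12) % 315 := by
    conv_lhs => rw [← Nat.div_add_mod r 12, pow_add, pow_mul, Nat.mul_mod, Nat.pow_mod]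
    norm_num
  have h3 : 2 ^ r % 315 = 2 ∨ 2 ^ r % 315 = 32 ∨ 2 ^ r % 315 = 128 ∨ 2 ^ r % 315 = 158 := by
    rw [h2]
    rcases h1 with h | h | h | h <;> rw [h] <;> norm_num
  have h4 : 2 ^ r % 2 = 0 := by
    obtain ⟨k, rfl⟩ : ∃ k, r = k + 1 := ⟨r - 1, by omega⟩
    rw [pow_succ]; omega
  have h6 : 32 ≤ 2 ^ r := by
    calc 32 = 2 ^ 5 := by norm_num
      _ ≤ 2 ^ r := Nat.pow_le_pow_right (by norm_num) h5
  obtain ⟨m, hm⟩ : ∃ m, 2 ^ r + 1 = 3 * m := ⟨(2 ^ r + 1) / 3, by omega⟩
  have hm1 : m ≠ 1 := by omega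
  refine ⟨m.minFac, Nat.minFac_prime hm1, (Nat.minFac_dvd m).trans ⟨3, by rw [hm, mul_comm]⟩, ?_, ?_, ?_, ?_⟩
  all_goals
    intro h7
    obtain ⟨l, hl⟩ : _ ∣ m := h7 ▸ Nat.minFac_dvd m
    omega

end nt

section comm

variable {F S : Type} [Field F] [CommRing S] [Algebra F S]

/-- powers of the torus element -/
theorem torus_pow {a z : S} (he : (a ^ 2 + a) * (a ^ 2 + a) = a ^ 2 + a) (n : ℕ) :
    (z * (a ^ 2 + a) + (1 - (a ^ 2 + a))) ^ n = z ^ n * (a ^ 2 + a) + (1 - (a ^ 2 + a)) := by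
  induction n with
  | zero => ring
  | succ n ih =>
    rw [pow_succ, ih, pow_succ]
    linear_combination (z ^ n * z - z ^ n - z + 1) * he

end comm

section ext

open Polynomial

variable {F : Type} [Field F] [Finite F]

/-- existence of the coefficients: `β ω + α` of order `s` -/
theorem exists_coeff {r s : ℕ} (hcard : Nat.card F = 2 ^ r) (hodd : r % 2 = 1) (h2 : (2 : F) = 0) (hs : s.Prime)
    (hs1 : s ∣ 2 ^ r + 1) (hs3 : s ≠ 3) :
    ∃ α β : F, (∃ R : F[X], (C β * X + C α) ^ s - 1 = (X ^ 2 + X + 1) * R) ∧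
      ¬ ((α = 0 ∨ α = 1) ∧ (β = 0 ∨ β = 1)) ∧ (∀ d : F, d ^ 2 + d + 1 ≠ 0) := by
  classical
  have : Fintype F := Fintype.ofFinite F
  have hnoroot : ∀ d : F, d ^ 2 + d + 1 ≠ 0 := by
    intro d hd
    have hd0 : d ≠ 0 := by
      rintro rfl
      simp at hd
    have hd3 : d ^ 3 = 1 := by linear_combination (d - 1) * hd
    have hd1 : d ≠ 1 := by
      rintro rfl
      have h3 : (1 : F) = 0 := by linear_combination hd - h2
      exact one_ne_zero h3
    have h3 : orderOf (Units.mk0 d hd0) = 3 := by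
      have := Fact.mk Nat.prime_three
      apply orderOf_eq_prime
      · apply Units.ext
        rw [Units.val_pow_eq_pow_val, Units.val_mk0, hd3, Units.val_one]
      · intro h
        apply hd1
        have := congrArg Units.val h
        simpa using this
    have h4 : 3 ∣ Nat.card Fˣ := h3 ▸ orderOf_dvd_natCard _
    rw [Nat.card_units, hcard] at h4
    have h5 : 2 ^ r % 3 = 2 := by
      have h6 : 2 ^ r % 3 = 2 ^ (r % 2) % 3 := by
        conv_lhs => rw [← Nat.div_add_mod r 2, pow_add, pow_mul, Nat.mul_mod, Nat.pow_mod]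
        norm_num
      rw [h6, hodd]; norm_num
    have h6 : 1 ≤ 2 ^ r := Nat.one_le_two_pow
    omega
  let f : F[X] := X ^ 2 + X + 1
  have hfd : f.natDegree = 2 := by
    change (X ^ 2 + X + 1 : F[X]).natDegree = 2
    compute_degree!
  have hfm : f.Monic := by
    change (X ^ 2 + X + 1 : F[X]).Monic
    monicity!
  have hf : Irreducible f := by
    rw [Polynomial.Monic.irreducible_iff_roots_eq_zero_of_degree_le_three hfm (by rw [hfd]) (by rw [hfd]; norm_num)]
    rw [Multiset.eq_zero_iff_forall_notMem]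
    intro d hd
    apply hnoroot d
    have := (Polynomial.mem_roots'.1 hd).2
    simpa [f, Polynomial.IsRoot] using this
  have : Fact (Irreducible f) := ⟨hf⟩
  let E := AdjoinRoot f
  have hfin : Module.Finite F E := hfm.finite_adjoinRoot
  have hcE : Nat.card E = (2 ^ r) ^ 2 := by
    have h3 := Module.natCard_eq_pow_finrank (K := F) (V := E)
    rw [hcard] at h3
    rw [h3]
    congr 1
    rw [(AdjoinRoot.powerBasis' hfm).finrank]
    exact hfd
  have hfE : Finite E := Nat.finite_of_card_ne_zero (by rw [hcE]; positivity)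
  have hsE : s ∣ Nat.card Eˣ := by
    rw [Nat.card_units, hcE]
    have h3 : (2 ^ r) ^ 2 - 1 = (2 ^ r + 1) * (2 ^ r - 1) := by
      have := Nat.sq_sub_sq (2 ^ r) 1
      rwa [one_pow] at this
    rw [h3]
    exact hs1.mul_right _
  have := Fact.mk hs
  obtain ⟨u, hu⟩ := exists_prime_orderOf_dvd_card' s hsE
  obtain ⟨P, hP⟩ := AdjoinRoot.mk_surjective (u : E)
  have hdeg : (P %ₘ f).natDegree ≤ 1 := by
    have h3 := Polynomial.natDegree_modByMonic_lt P hfm (by
      intro h
      have := congrArg Polynomial.natDegree h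
      rw [hfd, natDegree_one] at this
      omega)
    rw [hfd] at h3
    omega
  obtain ⟨β, α, hαβ⟩ := Polynomial.exists_eq_X_add_C_of_natDegree_le_one hdeg
  have hmk : AdjoinRoot.mk f (C β * X + C α) = (u : E) := by
    rw [← hαβ, ← hP, AdjoinRoot.mk_eq_mk]
    refine ⟨-(P /ₘ f), ?_⟩
    have := Polynomial.modByMonic_add_div P f
    linear_combination this
  have hus : u ^ s = 1 := by rw [← hu, pow_orderOf_eq_one]
  have h2P : (2 : F[X]) = 0 := by
    have := congrArg (C : F →+* F[X]) h2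
    rwa [map_ofNat, map_zero] at this
  refine ⟨α, β, ?_, ?_, hnoroot⟩
  · have h3 : AdjoinRoot.mk f ((C β * X + C α) ^ s - 1) = 0 := by
      rw [map_sub, map_pow, hmk, map_one, ← Units.val_pow_eq_pow_val, hus, Units.val_one, sub_self]
    rw [AdjoinRoot.mk_eq_zero] at h3
    obtain ⟨R, hR⟩ := h3
    exact ⟨R, hR⟩
  · rintro ⟨hα, hβ⟩
    have hne1 : u ≠ 1 := by
      rintro rfl
      rw [orderOf_one] at hu
      exact hs.one_lt.ne hu
    have h3 : u ^ 3 = 1 := by
      rcases hβ with rfl | rfl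
      · exfalso
        rcases hα with rfl | rfl
        · rw [C_0, zero_mul, zero_add, map_zero] at hmk
          exact u.ne_zero hmk.symm
        · rw [C_0, zero_mul, zero_add, C_1, map_one] at hmk
          exact hne1 (Units.ext hmk.symm)
      · apply Units.ext
        rw [Units.val_pow_eq_pow_val, Units.val_one, ← hmk, ← map_pow, ← sub_eq_zero, ← map_one (AdjoinRoot.mk f),
          ← map_sub, AdjoinRoot.mk_eq_zero]
        rcases hα with rfl | rfl
        · refine ⟨X - 1, ?_⟩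
          rw [C_1, C_0]
          ring
        · refine ⟨X, ?_⟩
          change _ = (X ^ 2 + X + 1) * X
          rw [C_1]
          linear_combination (X ^ 2 + X) * h2P
    have h4 := orderOf_dvd_of_pow_eq_one h3
    rw [hu, Nat.prime_dvd_prime_iff_eq hs Nat.prime_three] at h4
    exact hs3 h4

end ext

section final

variable {F : Type} [Field F] {G : Type} [Group G] {N : Subgroup G}

/-- **`q = 2^r`, `r ≥ 5`** -/
theorem dead_odd {Ω ι : Type} [Finite F] [Finite G] [Nonempty Ω] [MulAction G Ω] [Finite ι]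
    (hE : Env G Ω N) (e : N ≃* Matrix.ProjectiveSpecialLinearGroup (Fin 4) F) {x : ι → G} {r : ι → ℕ}
    (hx : PF x r) (hcov : Cov Ω x) {i₀ : ι} {σ : F ≃+* F} (hσ : cS hE.norm e (x i₀) = phi 4 F σ)
    {K : Subfield F} (hK : ∀ a, a ∈ K ↔ σ a = a) (hK2 : Nat.card K = 2) (hF : Nat.card F = 2 ^ r i₀)
    {k : ι → GL (Fin 4) K}
    (hk : ∀ i, i ≠ i₀ → cS hE.norm e (x i) = theta 4 K.subtype (k i))
    (hkc : ∀ i j, i ≠ i₀ → j ≠ i₀ → k i * k j = k j * k i) (hk1 : ∀ i, i ≠ i₀ → k i ^ r i = 1 ∧ k i ≠ 1)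
    (hr0 : 5 ≤ r i₀) {i₃ : ι} (h3 : i₃ ≠ i₀) (hr3 : r i₃ = 3)
    (hL : ∀ (x : ι → G) (r : ι → ℕ), PF x r → Cov Ω x →
      (∀ i, ∃ A : GL (Fin 4) F, cS hE.norm e (x i) = Psi 4 F A) → False) : False := by
  classical
  have hN := hE.norm
  have hinj := cS_inj hN e hE.cent
  have h2K : (2 : K) = 0 := by
    rcases eq_zero_or_one hK2 ((1 : K) + 1) with h | h
    · rw [← one_add_one_eq_two, h]
    · exact absurd (add_left_cancel (h.trans (add_zero 1).symm)) one_ne_zero
  have h2 : (2 : F) = 0 := by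
    have := congrArg K.subtype h2K
    rwa [map_ofNat, map_zero] at this
  have hK01 : ∀ a, σ a = a → a = 0 ∨ a = 1 := by
    intro a ha
    rcases eq_zero_or_one hK2 ⟨a, (hK a).2 ha⟩ with h | h
    · exact Or.inl (congrArg Subtype.val h)
    · exact Or.inr (congrArg Subtype.val h)
  have hrp := hx.prime i₀
  have hodd : r i₀ % 2 = 1 := by
    rcases hrp.eq_two_or_odd with h | h
    · omega
    · exact h
  obtain ⟨s, hs, hs1, hs2, hs3, hs5, hs7⟩ := exists_prime_dvd hrp hr0
  obtain ⟨α, β, ⟨R, hR⟩, hαβ, hnoroot⟩ := exists_coeff hF hodd h2 hs hs1 hs3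
  -- no element of order `s` in `F`
  have hnos : ∀ d : F, d ^ s = 1 → d = 1 := by
    intro d hd
    have hd0 : d ≠ 0 := by
      rintro rfl
      rw [zero_pow hs.ne_zero] at hd
      exact zero_ne_one hd
    have h4 : (Units.mk0 d hd0) ^ s = 1 := by
      apply Units.ext
      rw [Units.val_pow_eq_pow_val, Units.val_mk0, hd, Units.val_one]
    have h5 := Nat.dvd_gcd (orderOf_dvd_of_pow_eq_one h4) (orderOf_dvd_natCard (Units.mk0 d hd0))
    have h6 : Nat.gcd s (Nat.card Fˣ) = 1 := by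
      rw [Nat.card_units, hF]
      refine (Nat.Prime.coprime_iff_not_dvd hs).2 fun h => ?_
      have h7 := (Nat.dvd_sub hs1 h)
      have h8 : 2 ^ r i₀ + 1 - (2 ^ r i₀ - 1) = 2 := by
        have : 1 ≤ 2 ^ r i₀ := Nat.one_le_two_pow
        omega
      rw [h8, Nat.prime_dvd_prime_iff_eq hs Nat.prime_two] at h7
      exact hs2 h7
    rw [h6, Nat.dvd_one, orderOf_eq_one_iff] at h5
    have := congrArg Units.val h5
    simpa using this
  -- the matrix `A`
  obtain ⟨ha3, ha1⟩ := hk1 i₃ h3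
  rw [hr3] at ha3
  let A : GL (Fin 4) F := Matrix.GeneralLinearGroup.map K.subtype (k i₃)
  have hA3 : (A : Matrix (Fin 4) (Fin 4) F) ^ 3 = 1 := by
    rw [← Units.val_pow_eq_pow_val, ← map_pow, ha3, map_one, Units.val_one]
  have hA1 : (A : Matrix (Fin 4) (Fin 4) F) ≠ 1 := by
    intro h
    apply ha1
    apply Units.ext
    ext i j
    have := congrFun (congrFun h i) j
    change ((k i₃ : Matrix (Fin 4) (Fin 4) K) i j : F) = (1 : Matrix (Fin 4) (Fin 4) F) i j at this
    rw [this, Units.val_one, Matrix.one_apply, Matrix.one_apply]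
    split_ifs <;> simp
  -- the commutative ring `F[A]`
  let sA : Set (Matrix (Fin 4) (Fin 4) F) := {(A : Matrix (Fin 4) (Fin 4) F)}
  have hcm : IsMulCommutative (Algebra.adjoin F sA) := Algebra.isMulCommutative_adjoin F (by
    rintro a rfl b rfl; rfl)
  let v := (Algebra.adjoin F sA).val
  have hv : Function.Injective v := Subtype.val_injective
  let a : Algebra.adjoin F sA := ⟨A, Algebra.subset_adjoin rfl⟩
  have hva : v a = (A : Matrix (Fin 4) (Fin 4) F) := rfl
  have ha3' : a ^ 3 = 1 := by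
    apply hv
    rw [map_pow, hva, hA3, map_one]
  have h2S : (2 : Algebra.adjoin F sA) = 0 := by
    have : (2 : Algebra.adjoin F sA) = algebraMap F _ 2 := by rw [map_ofNat]
    rw [this, h2, map_zero]
  have he : (a ^ 2 + a) * (a ^ 2 + a) = a ^ 2 + a := by
    linear_combination (a + 2) * ha3' + h2S
  let ca : F → Algebra.adjoin F sA := algebraMap F _
  let z : Algebra.adjoin F sA := ca β * a + ca α
  have hzs : (z ^ s - 1) * (a ^ 2 + a) = 0 := by
    have h4 := congrArg (Polynomial.aeval a) hR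
    rw [map_sub, map_pow, map_add, map_mul, Polynomial.aeval_C, Polynomial.aeval_C, Polynomial.aeval_X, map_one,
      map_mul, map_add, map_add, map_pow, Polynomial.aeval_X, map_one] at h4
    change (z ^ s - 1) * (a ^ 2 + a) = 0
    have h5 : z ^ s - 1 = (a ^ 2 + a + 1) * Polynomial.aeval a R := h4
    rw [h5]
    linear_combination (Polynomial.aeval a R) * he + (Polynomial.aeval a R) * (a ^ 2 + a) * h2S
  let t' : Algebra.adjoin F sA := z * (a ^ 2 + a) + (1 - (a ^ 2 + a))
  have hts : t' ^ s = 1 := by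
    change (z * (a ^ 2 + a) + (1 - (a ^ 2 + a))) ^ s = 1
    rw [torus_pow he]
    linear_combination hzs
  let T : Matrix (Fin 4) (Fin 4) F := v t'
  have hTs : T ^ s = 1 := by
    change (v t') ^ s = 1
    rw [← map_pow, hts, map_one]
  let cM : F → Matrix (Fin 4) (Fin 4) F := algebraMap F _
  have hT : T = (cM β * A + cM α) * ((A : Matrix (Fin 4) (Fin 4) F) ^ 2 + A) +
      (1 - ((A : Matrix (Fin 4) (Fin 4) F) ^ 2 + A)) := rfl
  let M : Matrix (Fin 4) (Fin 4) F →+* Matrix (Fin 4) (Fin 4) F := (σ : F →+* F).mapMatrix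
  have hMK : ∀ g : GL (Fin 4) K, M (Matrix.GeneralLinearGroup.map K.subtype g : Matrix (Fin 4) (Fin 4) F) =
      (Matrix.GeneralLinearGroup.map K.subtype g : Matrix (Fin 4) (Fin 4) F) := by
    intro g
    ext i j
    exact (hK _).1 (g.1 i j).2
  have hMA : M (A : Matrix (Fin 4) (Fin 4) F) = (A : Matrix (Fin 4) (Fin 4) F) := hMK _
  have hMc : ∀ c : F, M (cM c) = cM (σ c) := by
    intro c
    ext i j
    change σ (algebraMap F (Matrix (Fin 4) (Fin 4) F) c i j) = algebraMap F (Matrix (Fin 4) (Fin 4) F) (σ c) i j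
    rw [Matrix.algebraMap_matrix_apply, Matrix.algebraMap_matrix_apply]
    split_ifs <;> simp
  have hMT : M T = (cM (σ β) * A + cM (σ α)) * ((A : Matrix (Fin 4) (Fin 4) F) ^ 2 + A) +
      (1 - ((A : Matrix (Fin 4) (Fin 4) F) ^ 2 + A)) := by
    rw [hT]
    simp only [map_add, map_mul, map_sub, map_pow, map_one, hMA, hMc]
  -- `T` is not fixed by `σ`
  have hMT1 : M T ≠ T := by
    intro h4
    let γ : F := α - σ α
    let δ : F := β - σ β
    have h5 : (ca δ * a + ca γ) * (a ^ 2 + a) = 0 := by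
      apply hv
      have h6 : T - M T = 0 := by rw [h4, sub_self]
      rw [hMT, hT] at h6
      have h7 : v ((ca δ * a + ca γ) * (a ^ 2 + a)) = (cM δ * A + cM γ) * ((A : Matrix (Fin 4) (Fin 4) F) ^ 2 + A) :=
        rfl
      have h8 : cM δ = cM β - cM (σ β) := map_sub (algebraMap F (Matrix (Fin 4) (Fin 4) F)) β (σ β)
      have h9 : cM γ = cM α - cM (σ α) := map_sub (algebraMap F (Matrix (Fin 4) (Fin 4) F)) α (σ α)
      rw [h7, map_zero, ← h6, h8, h9]
      noncomm_ring
    have h6 : ca (δ ^ 2 + δ * γ + γ ^ 2) * (a ^ 2 + a) = 0 := by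
      have h7 : ca (δ ^ 2 + δ * γ + γ ^ 2) = ca δ ^ 2 + ca δ * ca γ + ca γ ^ 2 := by
        change algebraMap F _ _ = _
        rw [map_add, map_add, map_mul, map_pow, map_pow]
      rw [h7]
      linear_combination (ca δ * a + ca δ + ca γ) * h5 - (ca δ ^ 2) * he - (ca δ * ca γ * a) * (a ^ 2 + a) * h2S
    have h7 : a ^ 2 + a ≠ 0 := by
      intro h8
      have h9 : a = 1 := by linear_combination ha3' - (a - 1) * h8
      apply hA1
      rw [← hva, h9, map_one]
    have h8 : δ ^ 2 + δ * γ + γ ^ 2 = 0 := by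
      by_contra hne
      apply h7
      have h9 : ca (δ ^ 2 + δ * γ + γ ^ 2)⁻¹ * (ca (δ ^ 2 + δ * γ + γ ^ 2) * (a ^ 2 + a)) = 0 := by rw [h6, mul_zero]
      rw [← mul_assoc] at h9
      have h10 : ca (δ ^ 2 + δ * γ + γ ^ 2)⁻¹ * ca (δ ^ 2 + δ * γ + γ ^ 2) = 1 := by
        change algebraMap F _ _ * algebraMap F _ _ = 1
        rw [← map_mul, inv_mul_cancel₀ hne, map_one]
      rwa [h10, one_mul] at h9
    have h9 : δ = 0 := by
      by_contra hne
      apply hnoroot (γ / δ)
      field_simp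
      linear_combination h8
    have h10 : γ = 0 := by
      rw [h9] at h8
      have : γ ^ 2 = 0 := by linear_combination h8
      exact pow_eq_zero_iff (two_ne_zero) |>.1 this
    exact hαβ ⟨hK01 α (sub_eq_zero.1 h10).symm, hK01 β (sub_eq_zero.1 h9).symm⟩
  -- the elements of `SL`
  have hdet : T.det = 1 := by
    apply hnos
    rw [← Matrix.det_pow, hTs, Matrix.det_one]
  let t : Matrix.SpecialLinearGroup (Fin 4) F := ⟨T, hdet⟩
  have hft : (fld σ t : Matrix (Fin 4) (Fin 4) F) = M T := rfl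
  have hts1 : t ^ s = 1 := by
    apply Subtype.ext
    rw [Matrix.SpecialLinearGroup.coe_pow]
    exact hTs
  have hfts : (fld σ t) ^ s = 1 := by rw [← map_pow, hts1, map_one]
  let Y : Matrix.SpecialLinearGroup (Fin 4) F := t * (fld σ t)⁻¹
  have htc : t * fld σ t = fld σ t * t := by
    apply Subtype.ext
    rw [Matrix.SpecialLinearGroup.coe_mul, Matrix.SpecialLinearGroup.coe_mul, hft]
    change T * M T = M T * T
    have h6 : M T = v ((ca (σ β) * a + ca (σ α)) * (a ^ 2 + a) + (1 - (a ^ 2 + a))) := hMT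
    rw [h6]
    change v t' * v _ = v _ * v t'
    rw [← map_mul, ← map_mul, mul_comm]
  have hYs : Y ^ s = 1 := by
    change (t * (fld σ t)⁻¹) ^ s = 1
    have h6 : Commute t (fld σ t)⁻¹ := (show Commute t (fld σ t) from htc).inv_right
    rw [h6.mul_pow, hts1, inv_pow, hfts, inv_one, one_mul]
  have hY1 : toN e Y ≠ 1 := by
    intro h6
    rw [toN_eq_one_iff] at h6
    change pr (t * (fld σ t)⁻¹) = 1 at h6
    rw [map_mul, map_inv, mul_inv_eq_one] at h6
    obtain ⟨c, hc⟩ := exists_smul_of_pr_eq h6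
    apply hMT1
    have h7 : M T = c • T := hc
    have h8 : c ^ s = 1 := by
      have h9 : (M T) ^ s = 1 := by rw [← map_pow, hTs, map_one]
      rw [h7, smul_pow, hTs] at h9
      have h10 := congrFun (congrFun h9 0) 0
      rwa [Matrix.smul_apply, Matrix.one_apply_eq, smul_eq_mul, mul_one] at h10
    rw [h7, hnos c h8, one_smul]
  -- commutation with the other members
  have hkA : ∀ i, i ≠ i₀ → (Matrix.GeneralLinearGroup.map K.subtype (k i) : Matrix (Fin 4) (Fin 4) F) *
      (A : Matrix (Fin 4) (Fin 4) F) = (A : Matrix (Fin 4) (Fin 4) F) *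
      (Matrix.GeneralLinearGroup.map K.subtype (k i) : Matrix (Fin 4) (Fin 4) F) := by
    intro i hi
    rw [← Units.val_mul, ← map_mul, hkc i i₃ hi h3, map_mul, Units.val_mul]
  have hkT : ∀ i, i ≠ i₀ → (Matrix.GeneralLinearGroup.map K.subtype (k i) : Matrix (Fin 4) (Fin 4) F) * T =
      T * (Matrix.GeneralLinearGroup.map K.subtype (k i) : Matrix (Fin 4) (Fin 4) F) := by
    intro i hi
    have h6 : Commute (Matrix.GeneralLinearGroup.map K.subtype (k i) : Matrix (Fin 4) (Fin 4) F)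
      (A : Matrix (Fin 4) (Fin 4) F) := hkA i hi
    have h7 : ∀ c : F, Commute (Matrix.GeneralLinearGroup.map K.subtype (k i) : Matrix (Fin 4) (Fin 4) F) (cM c) :=
      fun c => (Algebra.commutes c _).symm
    have h8 : Commute (Matrix.GeneralLinearGroup.map K.subtype (k i) : Matrix (Fin 4) (Fin 4) F)
        ((A : Matrix (Fin 4) (Fin 4) F) ^ 2 + A) := (h6.pow_right 2).add_right h6
    rw [hT]
    exact (((((h7 β).mul_right h6).add_right (h7 α)).mul_right h8).add_right
      ((Commute.one_right _).sub_right h8)).eq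
  have hcj : ∀ i, i ≠ i₀ → cj (Matrix.GeneralLinearGroup.map K.subtype (k i)) t = t := by
    intro i hi
    apply Subtype.ext
    rw [coe_cj]
    change _ * T * _ = T
    rw [hkT i hi, mul_assoc, ← Units.val_mul, mul_inv_cancel, Units.val_one, mul_one]
  have hxi : ∀ i, i ≠ i₀ → ∀ s, x i * toN e s * (x i)⁻¹ =
      toN e (cj (Matrix.GeneralLinearGroup.map K.subtype (k i)) s) := by
    intro i hi s
    exact conj_toN hN e (a := cj (Matrix.GeneralLinearGroup.map K.subtype (k i))) (hk i hi) s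
  let x' : ι → G := Function.update x i₀ (toN e Y)
  have hcovY : Cov Ω x' := by
    have h6 := Cov.mv_comm hcov i₀ (c := toN e t) (fun j hj => by
      have h7 := hxi j hj t
      rw [hcj j hj, mul_inv_eq_iff_eq_mul] at h7
      exact h7.symm)
    have h7 : toN e t * x i₀ * (toN e t)⁻¹ * (x i₀)⁻¹ = toN e Y := by
      have h8 : toN e t * x i₀ * (toN e t)⁻¹ * (x i₀)⁻¹ = toN e t * (x i₀ * toN e t * (x i₀)⁻¹)⁻¹ := by group
      rw [h8, conj_toN hN e (a := fld σ) hσ, ← map_inv, ← map_mul]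
    rw [h7] at h6
    exact h6
  have hx0 : x' i₀ = toN e Y := Function.update_self _ _ _
  have hxj : ∀ i, i ≠ i₀ → x' i = x i := fun i hi => Function.update_of_ne hi _ _
  have hYcj : ∀ i, i ≠ i₀ → cj (Matrix.GeneralLinearGroup.map K.subtype (k i)) Y = Y := by
    intro i hi
    have h6 : cj (Matrix.GeneralLinearGroup.map K.subtype (k i)) (fld σ t) = fld σ t := by
      have h7 := fld_cj σ (Matrix.GeneralLinearGroup.map K.subtype (k i)) t
      rw [hcj i hi] at h7
      have h8 : mapGL σ (Matrix.GeneralLinearGroup.map K.subtype (k i)) =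
          Matrix.GeneralLinearGroup.map K.subtype (k i) := by
        apply Units.ext
        rw [coe_mapGL]
        ext a b
        exact (hK _).1 ((k i).1 a b).2
      rw [h8] at h7
      exact h7.symm
    change cj _ (t * (fld σ t)⁻¹) = t * (fld σ t)⁻¹
    rw [map_mul, map_inv, h6, hcj i hi]
  have hxY : ∀ i, i ≠ i₀ → x i * toN e Y = toN e Y * x i := by
    intro i hi
    have h7 := hxi i hi Y
    rwa [hYcj i hi, mul_inv_eq_iff_eq_mul] at h7
  let r' : ι → ℕ := Function.update r i₀ s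
  have hr0' : r' i₀ = s := Function.update_self _ _ _
  have hrj : ∀ i, i ≠ i₀ → r' i = r i := fun i hi => Function.update_of_ne hi _ _
  have hsr : ∀ i, i ≠ i₀ → r i ≠ s := by
    intro i hi h
    have h6 := mat_prime hK2 (hx.prime i) (hk1 i hi).1 (hk1 i hi).2
    rw [h] at h6
    rcases h6 with h | h | h | h
    · exact hs2 h
    · exact hs3 h
    · exact hs5 h
    · exact hs7 h
  refine hL x' r' ⟨fun i => ?_, fun i j hij => ?_, fun i => ?_, fun i => ?_, fun i j => ?_⟩ hcovY fun i => ?_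
  · by_cases hi : i = i₀
    · rw [hi, hr0']; exact hs
    · rw [hrj i hi]; exact hx.prime i
  · by_cases hi : i = i₀
    · by_cases hj : j = i₀
      · rw [hi, hj]
      · rw [hi, hr0', hrj j hj] at hij
        exact absurd hij.symm (hsr j hj)
    · by_cases hj : j = i₀
      · rw [hj, hr0', hrj i hi] at hij
        exact absurd hij (hsr i hi)
      · rw [hrj i hi, hrj j hj] at hij
        exact hx.inj hij
  · by_cases hi : i = i₀
    · rw [hi, hx0, hr0', ← map_pow, hYs, map_one]
    · rw [hxj i hi, hrj i hi, hx.pow]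
  · by_cases hi : i = i₀
    · rw [hi, hx0]; exact hY1
    · rw [hxj i hi]; exact hx.ne i
  · by_cases hi : i = i₀
    · by_cases hj : j = i₀
      · rw [hi, hj]
      · rw [hi, hx0, hxj j hj, hxY j hj]
    · by_cases hj : j = i₀
      · rw [hj, hx0, hxj i hi, hxY i hi]
      · rw [hxj i hi, hxj j hj, hx.comm]
  · by_cases hi : i = i₀
    · refine ⟨(Y : GL (Fin 4) F), ?_⟩
      rw [hi, hx0, Psi_coe, toN_eq, cS_coe, MulEquiv.apply_symm_apply]
    · refine ⟨Matrix.GeneralLinearGroup.map K.subtype (k i), ?_⟩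
      rw [hxj i hi, hk i hi]
      rfl

end final

end Cfsg.Agent.H930.RC
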