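import Cfsg.Agent.H930.RC.F42b
import Cfsg.Agent.H930.RC.F42c
import Cfsg.Agent.H233.RC.Red
import Cfsg.Agent.H106.RC.Ari

/-!
# S3510, row A: `FieldStmt` from the linear theorem (helper930)
-/

set_option autoImplicit false

namespace Cfsg.Agent.H930.RC

open Cfsg.Agent.H106.RC Cfsg.Agent.H202.RC MulAction
open Cfsg.Agent.ClassicalGeometry.AutPSL.Root Cfsg.Agent.ClassicalGeometry.AutPSL.Auto
open Cfsg.Agent.H199.PslAut Cfsg.Agent.H199.PslField

/-- `PSL_n` of the fixed field of `σ ≠ 1` is smaller than `PSL_n(F)` -/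
theorem card_psl_lt {F : Type} [Field F] [Finite F] {n : ℕ} (hn : 3 ≤ n) {σ : F ≃+* F} (hσ1 : σ ≠ 1)
    {K : Subfield F} (hK : ∀ a, a ∈ K ↔ σ a = a) :
    Nat.card (Matrix.ProjectiveSpecialLinearGroup (Fin n) K) <
      Nat.card (Matrix.ProjectiveSpecialLinearGroup (Fin n) F) := by
  classical
  let μ : Matrix.SpecialLinearGroup (Fin n) K →* Matrix.ProjectiveSpecialLinearGroup (Fin n) F :=
    pr.comp (Matrix.SpecialLinearGroup.map K.subtype)
  have hker : μ.ker = Subgroup.center (Matrix.SpecialLinearGroup (Fin n) K) := by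
    ext s
    rw [MonoidHom.mem_ker]
    change pr (Matrix.SpecialLinearGroup.map K.subtype s) = 1 ↔ _
    rw [pr_eq_one_iff, Matrix.SpecialLinearGroup.mem_center_iff,
      Matrix.SpecialLinearGroup.mem_center_iff]
    have hcoe : ∀ r : K, (Matrix.scalar (Fin n) (r : F)) = (Matrix.scalar (Fin n) r).map K.subtype := by
      intro r
      ext a b
      rw [Matrix.map_apply, Matrix.scalar_apply, Matrix.scalar_apply, Matrix.diagonal_apply, Matrix.diagonal_apply]
      split_ifs <;> simp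
    constructor
    · rintro ⟨r, hr, h⟩
      have h0 : Nonempty (Fin n) := ⟨⟨0, by omega⟩⟩
      obtain ⟨a⟩ := h0
      have h1 : r = ((s.1 a a : K) : F) := by
        have := congrFun (congrFun h a) a
        rw [Matrix.scalar_apply, Matrix.diagonal_apply_eq] at this
        exact this
      refine ⟨s.1 a a, ?_, ?_⟩
      · apply Subtype.ext
        rw [SubmonoidClass.coe_pow, ← h1]
        exact hr
      · have h2 : (Matrix.scalar (Fin n) (s.1 a a)).map K.subtype = s.1.map K.subtype := by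
          rw [← hcoe, ← h1]
          exact h
        ext b c
        have := congrFun (congrFun h2 b) c
        exact this
    · rintro ⟨r, hr, h⟩
      refine ⟨r, ?_, ?_⟩
      · rw [← SubmonoidClass.coe_pow, hr]
        rfl
      · rw [hcoe, h]
        rfl
  have h1 : Nat.card (Matrix.ProjectiveSpecialLinearGroup (Fin n) K) = Nat.card μ.range := by
    rw [← Nat.card_congr (QuotientGroup.quotientKerEquivRange μ).toEquiv]
    exact Nat.card_congr (QuotientGroup.quotientMulEquivOfEq hker.symm).toEquiv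
  rw [h1]
  have hfin : Finite (Matrix.ProjectiveSpecialLinearGroup (Fin n) F) := inferInstance
  have h2 : Nat.card μ.range ≤ Nat.card (Matrix.ProjectiveSpecialLinearGroup (Fin n) F) :=
    Subgroup.card_le_card_group _
  rcases lt_or_eq_of_le h2 with h | h
  · exact h
  · exfalso
    have h3 : μ.range = ⊤ := Subgroup.eq_top_of_card_eq _ h
    apply hσ1
    apply phi_injective (n := n) (by omega)
    rw [map_one]
    apply MulEquiv.ext
    intro y
    have hy : y ∈ μ.range := by rw [h3]; trivial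
    obtain ⟨s, rfl⟩ := hy
    rw [MulAut.one_apply]
    change phi n F σ (pr (Matrix.SpecialLinearGroup.map K.subtype s)) = pr (Matrix.SpecialLinearGroup.map K.subtype s)
    rw [phi_pr]
    congr 1
    have : Matrix.SpecialLinearGroup.map K.subtype s ∈ fixSL n σ := by
      rw [fixSL_eq hK]
      exact ⟨s, rfl⟩
    exact this

/-- **FieldStmt from the linear theorem.** -/
theorem fieldStmt
    (hL : ∀ (F V G Ω ι : Type) [Field F] [Finite F] [AddCommGroup V] [Module F V] [Module.Finite F V] [Group G]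
      [Finite G] [Finite Ω] [Nonempty Ω] [MulAction G Ω] [Finite ι] (N : Subgroup G) (κ : SLV F V →* G) (x : ι → G)
      (r : ι → ℕ) (a : ι → V ≃ₗ[F] V) (_ : LinCov Ω N κ x r a) (_ : 3 ≤ Module.finrank F V)
      (_ : ¬ (Nat.card F = 2 ∧ Module.finrank F V = 4)) (_ : IH (Nat.card N)), False) : FieldStmt := by
  intro F _ _ n hn G _ _ Ω _ _ _ N hE e hne hIH ι _ x r hx hcov hmin hlin hfield
  obtain ⟨i₀, g, σ, hσ, hσ1⟩ := hfield
  change cS hE.norm e (x i₀) = _ at hσ
  have hlin' : ∀ i, ∃ (g : GL (Fin n) F) (σ : F ≃+* F), cS hE.norm e (x i) = Psi n F g * phi n F σ := hlin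
  obtain ⟨K, hK, hcK⟩ := card_fix σ
  have hKu : ∀ K' : Subfield F, (∀ a, a ∈ K' ↔ σ a = a) → K' = K := by
    intro K' hK'
    ext a
    rw [hK', hK]
  by_cases hex : n = 4 ∧ Nat.card K = 2
  · -- the exceptional case
    obtain ⟨rfl, hK2⟩ := hex
    by_cases hone : ∃ i₁, ∀ i, i ≠ i₁ → i = i₀
    · exact field_dead_gen hn hE e hx hcov hlin' hσ1 hσ (Or.inr hone)
    push Not at hone
    obtain ⟨e', hσ', hl⟩ := exists_std (by norm_num) hE.norm e hσ1 hσ (hx.prime i₀) (hx.pow i₀)
    have hlin'' : ∀ i, ∃ (g : GL (Fin 4) F) (σ : F ≃+* F), cS hE.norm e' (x i) = Psi 4 F g * phi 4 F σ := by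
      intro i
      obtain ⟨g, τ, h⟩ := hlin' i
      obtain ⟨g', h'⟩ := hl _ _ ⟨g, h⟩
      exact ⟨g', τ, h'⟩
    obtain ⟨k, hk, hkc, hk1⟩ := exists_mat hn hE e' hx hlin'' hσ' hK hK2
    obtain ⟨j₁, -, hj₁⟩ := hone i₀
    obtain ⟨j₂, hj₁₂, hj₂⟩ := hone j₁
    have hrr : r j₁ ≠ r j₂ := fun h => hj₁₂ (hx.inj h).symm
    have hord := mat_orders hK2 (hx.prime j₁) (hx.prime j₂) hrr (hk1 j₁ hj₁).1 (hk1 j₁ hj₁).2
      (hk1 j₂ hj₂).1 (hk1 j₂ hj₂).2 (hkc j₁ j₂ hj₁ hj₂)
    obtain ⟨i₃, i₄, h3, h4, hr3, hr4⟩ : ∃ i₃ i₄, i₃ ≠ i₀ ∧ i₄ ≠ i₀ ∧ r i₃ = 3 ∧ (r i₄ = 2 ∨ r i₄ = 5) := by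
      rcases hord with ⟨h, h'⟩ | ⟨h, h'⟩
      · exact ⟨j₁, j₂, hj₁, hj₂, h, h'⟩
      · exact ⟨j₂, j₁, hj₂, hj₁, h, h'⟩
    by_cases hr0 : r i₀ = 2
    · have hr4' : r i₄ = 5 := by
        rcases hr4 with h | h
        · exact absurd (hx.inj (h.trans hr0.symm)) h4
        · exact h
      refine dead_four hE e' hx hcov hσ1 hσ' hK hK2 hk hkc hk1 hr0 h3 h4 hr3 hr4' fun i => ?_
      by_contra hno
      push Not at hno
      obtain ⟨hi0, hi3, hi4⟩ := hno
      have hri : r i ≠ r i₃ := fun h => hi3 (hx.inj h)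
      have hord := mat_orders hK2 (hx.prime i) (hx.prime i₃) hri (hk1 i hi0).1 (hk1 i hi0).2
        (hk1 i₃ h3).1 (hk1 i₃ h3).2 (hkc i i₃ hi0 h3)
      rcases hord with ⟨h, -⟩ | ⟨-, h | h⟩
      · exact hri (h.trans hr3.symm)
      · exact hi0 (hx.inj (h.trans hr0.symm))
      · exact hi4 (hx.inj (h.trans hr4'.symm))
    · have hr03 : r i₀ ≠ 3 := fun h => h3 (hx.inj (hr3.trans h.symm))
      have hp := hx.prime i₀
      have h5 : 5 ≤ r i₀ := by
        have h2 := hp.two_le
        by_contra hlt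
        push Not at hlt
        have h6 : r i₀ = 4 := by omega
        rw [h6] at hp
        revert hp
        norm_num
      have hσr : σ ^ r i₀ = 1 := by
        apply phi_injective (n := 4) (by norm_num)
        rw [map_pow, ← hσ', ← map_pow, hx.pow, map_one, map_one]
      have hoσ : orderOf σ = r i₀ := by
        have := Fact.mk hp
        exact orderOf_eq_prime hσr hσ1
      rw [hoσ, hK2] at hcK
      refine dead_odd hE e' hx hcov hσ' hK hK2 hcK.symm hk hkc hk1 h5 h3 hr3 fun x' r' hx' hcov' hP => ?_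
      refine lin_noCov hL hn hE e' ?_ hIH hx' hcov' hP
      rintro ⟨-, h⟩
      rw [h] at hcK
      have h6 : (2 : ℕ) ^ 5 ≤ 2 ^ r i₀ := Nat.pow_le_pow_right (by norm_num) h5
      omega
  · -- the general case
    refine field_dead hn hE e hx hcov hlin' hσ1 hσ fun K' hK' => ?_
    rw [hKu K' hK']
    have hFK : Fintype K := Fintype.ofFinite K
    have hS : IsSimpleGroup (Matrix.ProjectiveSpecialLinearGroup (Fin n) K) :=
      LieClassical.SLGen.psl_isSimpleGroup (by rw [Fintype.card_fin]; exact hn)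
    have hperf0 : commutator (Matrix.SpecialLinearGroup (Fin n) K) = ⊤ :=
      LieClassical.SLGen.commutator_eq_top (by rw [Fintype.card_fin]; exact hn)
    have hSn : ¬ IsMulCommutative (Matrix.ProjectiveSpecialLinearGroup (Fin n) K) := by
      intro hcomm
      have hc : ∀ a b : Matrix.ProjectiveSpecialLinearGroup (Fin n) K, a * b = b * a :=
        fun a b => hcomm.is_comm.comm a b
      have h1 : Group.IsPerfect (Matrix.SpecialLinearGroup (Fin n) K) := ⟨hperf0⟩
      have h2 : Group.IsPerfect (Matrix.ProjectiveSpecialLinearGroup (Fin n) K) := inferInstance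
      have h3 := h2.commutator_eq_top
      rw [commutator_def, Subgroup.commutator_eq_bot_iff_le_centralizer.2] at h3
      · obtain ⟨a, b, hab⟩ := hS.exists_pair_ne
        apply hab
        have h4 : ∀ c : Matrix.ProjectiveSpecialLinearGroup (Fin n) K, c = 1 := by
          intro c
          have : c ∈ (⊤ : Subgroup (Matrix.ProjectiveSpecialLinearGroup (Fin n) K)) := trivial
          rw [← h3] at this
          exact Subgroup.mem_bot.1 this
        rw [h4 a, h4 b]
      · intro a _ b _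
        exact hc b a
    refine hIH _ hS hSn (Or.inl ⟨K, inferInstance, hFK, n, by omega, by omega, ⟨MulEquiv.refl _⟩⟩) (fun hexc => ?_)
      (card_psl_lt hn hσ1 hK)
    rcases psl_exc (by omega) hexc with ⟨h, -⟩ | ⟨h, h'⟩
    · omega
    · exact hex ⟨h, by rw [Nat.card_eq_fintype_card]; exact h'⟩

end Cfsg.Agent.H930.RC
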