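import Cfsg.Agent.H930.RC.F42a
import Cfsg.Agent.H338.RC.Cover2

/-!
# S3510, box A5, `(n, q_0) = (4, 2)`, `q = 4` (helper930)

Elements `a, b` of `GL_4(2)` of orders 3, 5 and the field automorphism of `F_4`.
-/

set_option autoImplicit false

namespace Cfsg.Agent.H930.RC

open Cfsg.Agent.H106.RC MulAction Matrix
open Cfsg.Agent.ClassicalGeometry.AutPSL.Root Cfsg.Agent.ClassicalGeometry.AutPSL.Auto
open Cfsg.Agent.H199.PslAut Cfsg.Agent.H199.PslField
open Cfsg.Agent.H380.RC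

section overK

variable {K : Type} [Field K]

theorem char_two (hK2 : Nat.card K = 2) : (2 : K) = 0 := by
  rcases eq_zero_or_one hK2 ((1 : K) + 1) with h | h
  · rw [← one_add_one_eq_two, h]
  · exact absurd (add_left_cancel (h.trans (add_zero 1).symm)) one_ne_zero

/-- equation of an element of order 5 -/
theorem five_eq (hK2 : Nat.card K = 2) {b : GL (Fin 4) K} (hb : b ^ 5 = 1) (hb1 : b ≠ 1) :
    (b : Matrix (Fin 4) (Fin 4) K) ^ 4 + (b : Matrix (Fin 4) (Fin 4) K) ^ 3 + (b : Matrix (Fin 4) (Fin 4) K) ^ 2 +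
      (b : Matrix (Fin 4) (Fin 4) K) + 1 = 0 := by
  have hb5 : (b : Matrix (Fin 4) (Fin 4) K) ^ 5 = 1 := by rw [← Units.val_pow_eq_pow_val, hb, Units.val_one]
  set B : Matrix (Fin 4) (Fin 4) K := (b : Matrix (Fin 4) (Fin 4) K) with hB
  have hf : ∀ v, ((vf b)^[5]) v = v := fun v => by rw [vf_iterate, hb, Units.val_one, Matrix.one_mulVec]
  have h1 : fx (vf b) = ⊥ := by
    rcases five_inv (card_vec hK2) hf (vf_ne hb1) (fx (vf b)) (fun v hv => by rw [mem_fx] at hv ⊢; rw [hv, hv])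
      with h | h
    · exact h
    · obtain ⟨v, hv⟩ := vf_ne hb1
      exact absurd (fx_eq_top.1 h v) hv
  apply Matrix.mulVec_injective
  funext v
  rw [Matrix.zero_mulVec]
  have h2 : (B ^ 4 + B ^ 3 + B ^ 2 + B + 1).mulVec v ∈ fx (vf b) := by
    rw [mem_fx, vf_apply, Matrix.mulVec_mulVec]
    congr 1
    have h3 : B * (B ^ 4 + B ^ 3 + B ^ 2 + B + 1) = B ^ 5 + B ^ 4 + B ^ 3 + B ^ 2 + B := by noncomm_ring
    rw [h3, hb5]
    abel
  rw [h1] at h2
  exact h2

/-- the element of order 3 is `b + b⁻¹` or its inverse -/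
theorem three_eq (hK2 : Nat.card K = 2) {a b : GL (Fin 4) K} (ha : a ^ 3 = 1) (ha1 : a ≠ 1) (hb : b ^ 5 = 1)
    (hb1 : b ≠ 1) (hab : a * b = b * a) :
    ((b : Matrix (Fin 4) (Fin 4) K) + (b : Matrix (Fin 4) (Fin 4) K) ^ 4 = a ∨
      (b : Matrix (Fin 4) (Fin 4) K) + (b : Matrix (Fin 4) (Fin 4) K) ^ 4 = (a : Matrix (Fin 4) (Fin 4) K) ^ 2) ∧
    ((b : Matrix (Fin 4) (Fin 4) K) + (b : Matrix (Fin 4) (Fin 4) K) ^ 4) ^ 2 =
      ((b : Matrix (Fin 4) (Fin 4) K) + (b : Matrix (Fin 4) (Fin 4) K) ^ 4) + 1 := by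
  have hb5 : (b : Matrix (Fin 4) (Fin 4) K) ^ 5 = 1 := by rw [← Units.val_pow_eq_pow_val, hb, Units.val_one]
  have ha3 : (a : Matrix (Fin 4) (Fin 4) K) ^ 3 = 1 := by rw [← Units.val_pow_eq_pow_val, ha, Units.val_one]
  have hAB : (a : Matrix (Fin 4) (Fin 4) K) * (b : Matrix (Fin 4) (Fin 4) K) =
      (b : Matrix (Fin 4) (Fin 4) K) * (a : Matrix (Fin 4) (Fin 4) K) := by
    rw [← Units.val_mul, hab, Units.val_mul]
  have hsum := five_eq hK2 hb hb1
  have h2 : (2 : Matrix (Fin 4) (Fin 4) K) = 0 := by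
    have : (2 : Matrix (Fin 4) (Fin 4) K) = (2 : K) • (1 : Matrix (Fin 4) (Fin 4) K) := by
      rw [← one_add_one_eq_two, ← one_add_one_eq_two, add_smul, one_smul]
    rw [this, char_two hK2, zero_smul]
  have hf : ∀ v, ((vf b)^[5]) v = v := fun v => by rw [vf_iterate, hb, Units.val_one, Matrix.one_mulVec]
  set B : Matrix (Fin 4) (Fin 4) K := (b : Matrix (Fin 4) (Fin 4) K) with hB
  set A : Matrix (Fin 4) (Fin 4) K := (a : Matrix (Fin 4) (Fin 4) K) with hA
  have hC2 : (B + B ^ 4) ^ 2 = (B + B ^ 4) + 1 := by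
    have h3 : (B + B ^ 4) ^ 2 = B ^ 2 + 2 * B ^ 5 + B ^ 5 * B ^ 3 := by noncomm_ring
    rw [h3, hb5, one_mul, mul_one]
    have h4 : B + B ^ 4 + 1 = (B ^ 4 + B ^ 3 + B ^ 2 + B + 1) - (B ^ 3 + B ^ 2) := by abel
    rw [h4, hsum, h2, add_zero, zero_sub]
    have h5 : B ^ 2 + B ^ 3 + (B ^ 3 + B ^ 2) = 2 * (B ^ 2 + B ^ 3) := by noncomm_ring
    rw [h2, zero_mul] at h5
    exact eq_neg_of_add_eq_zero_left h5
  refine ⟨?_, hC2⟩
  -- `A ^ 2 + A + 1 = 0`
  have hA1 : A ^ 2 + A + 1 = 0 := by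
    have h1 : fx (vf a) = ⊥ := by
      rcases five_inv (card_vec hK2) hf (vf_ne hb1) (fx (vf a)) (fx_stable (vf_comm hab.symm)) with h | h
      · exact h
      · obtain ⟨v, hv⟩ := vf_ne ha1
        exact absurd (fx_eq_top.1 h v) hv
    apply Matrix.mulVec_injective
    funext v
    rw [Matrix.zero_mulVec]
    have h2 : (A ^ 2 + A + 1).mulVec v ∈ fx (vf a) := by
      rw [mem_fx, vf_apply, Matrix.mulVec_mulVec]
      congr 1
      have h3 : A * (A ^ 2 + A + 1) = A ^ 3 + A ^ 2 + A := by noncomm_ring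
      rw [h3, ha3]
      abel
    rw [h1] at h2
    exact h2
  set C : Matrix (Fin 4) (Fin 4) K := B + B ^ 4 with hC
  have hAC : A * C = C * A := by
    have h5 : A * B ^ 4 = B ^ 4 * A := (Commute.pow_right (show Commute A B from hAB) 4).eq
    rw [hC, mul_add, add_mul, hAB, h5]
  have hprod : (C - A) * (C - A ^ 2) = 0 := by
    have h5 : (C - A) * (C - A ^ 2) = C ^ 2 - C * A ^ 2 - A * C + A ^ 3 := by noncomm_ring
    have h6 : C ^ 2 - C * A ^ 2 - C * A + 1 = C ^ 2 + C + 1 - C * (A ^ 2 + A + 1) := by noncomm_ring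
    rw [h5, hAC, ha3, h6, hA1, hC2, mul_zero, sub_zero]
    have h7 : C + 1 + C + 1 = 2 * (C + 1) := by noncomm_ring
    rw [h7, h2, zero_mul]
  let δ : (Fin 4 → K) →+ (Fin 4 → K) :=
    { toFun := fun v => (C - A).mulVec v
      map_zero' := Matrix.mulVec_zero _
      map_add' := fun v w => Matrix.mulVec_add _ v w }
  have hδ : ∀ v, δ v = (C - A).mulVec v := fun _ => rfl
  have hBC : (C - A) * B = B * (C - A) := by
    have h5 : C * B = B * C := by rw [hC]; noncomm_ring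
    rw [sub_mul, mul_sub, hAB, h5]
  rcases five_inv (card_vec hK2) hf (vf_ne hb1) δ.ker (fun v hv => by
    rw [AddMonoidHom.mem_ker, hδ] at hv ⊢
    rw [vf_apply, Matrix.mulVec_mulVec, hBC, ← Matrix.mulVec_mulVec, hv, Matrix.mulVec_zero]) with h | h
  · right
    apply Matrix.mulVec_injective
    funext v
    have h5 : (C - A ^ 2).mulVec v ∈ δ.ker := by
      rw [AddMonoidHom.mem_ker, hδ, Matrix.mulVec_mulVec, hprod, Matrix.zero_mulVec]
    rw [h, AddSubgroup.mem_bot, Matrix.sub_mulVec, sub_eq_zero] at h5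
    exact h5
  · left
    apply Matrix.mulVec_injective
    funext v
    have h5 : v ∈ δ.ker := by rw [h]; trivial
    rw [AddMonoidHom.mem_ker, hδ, Matrix.sub_mulVec, sub_eq_zero] at h5
    exact h5

end overK

section overF

variable {F : Type} [Field F]

/-- matrices `X` with `E X = X`, `X E' = X` -/
def QM (E E' : Matrix (Fin 4) (Fin 4) F) : AddSubgroup (Matrix (Fin 4) (Fin 4) F) where
  carrier := {X | E * X = X ∧ X * E' = X}
  zero_mem' := ⟨mul_zero _, zero_mul _⟩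
  add_mem' {a b} ha hb := ⟨by rw [mul_add, ha.1, hb.1], by rw [add_mul, ha.2, hb.2]⟩
  neg_mem' {a} ha := ⟨by rw [mul_neg, ha.1], by rw [neg_mul, ha.2]⟩

theorem mem_QM {E E' X : Matrix (Fin 4) (Fin 4) F} : X ∈ QM E E' ↔ E * X = X ∧ X * E' = X := Iff.rfl

variable {E E' : Matrix (Fin 4) (Fin 4) F}

theorem QM_mul (h : E' * E = 0) {X Y : Matrix (Fin 4) (Fin 4) F} (hX : X ∈ QM E E') (hY : Y ∈ QM E E') :
    X * Y = 0 := by
  rw [← hX.2, ← hY.1, mul_assoc, ← mul_assoc E', h, zero_mul, mul_zero]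

theorem det_one_of_pow {F : Type} [Field F] (M : Matrix (Fin 4) (Fin 4) F) {s : ℕ} (hM : M ^ s = 1)
    (hs : ∀ d : F, d ^ s = 1 → d = 1) : M.det = 1 := by
  apply hs
  rw [← Matrix.det_pow, hM, Matrix.det_one]

/-- `1 + X` -/
def uX (h2 : (2 : F) = 0) (h : E' * E = 0) (X : QM E E') : Matrix.SpecialLinearGroup (Fin 4) F :=
  ⟨1 + X.1, by
    apply det_one_of_pow (s := 2)
    · have h1 : (1 + X.1) ^ 2 = 1 + (2 : F) • X.1 + X.1 * X.1 := by
        rw [two_smul]; noncomm_ring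
      rw [h1, h2, zero_smul, QM_mul h X.2 X.2, add_zero, add_zero]
    · intro d hd
      have h3 : (d - 1) ^ 2 = 0 := by
        have : (d - 1) ^ 2 = d ^ 2 - 2 * d + 1 := by ring
        rw [this, hd, h2]
        rw [zero_mul, sub_zero, one_add_one_eq_two, h2]
      exact sub_eq_zero.1 (pow_eq_zero_iff (two_ne_zero) |>.1 h3)⟩

theorem uX_coe (h2 : (2 : F) = 0) (h : E' * E = 0) (X : QM E E') :
    (uX h2 h X : Matrix (Fin 4) (Fin 4) F) = 1 + X.1 := rfl

theorem uX_mul (h2 : (2 : F) = 0) (h : E' * E = 0) (X Y : QM E E') : uX h2 h X * uX h2 h Y = uX h2 h (X + Y) := by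
  apply Subtype.ext
  change (1 + X.1) * (1 + Y.1) = 1 + (X.1 + Y.1)
  have h1 : (1 + X.1) * (1 + Y.1) = 1 + (X.1 + Y.1) + X.1 * Y.1 := by noncomm_ring
  rw [h1, QM_mul h X.2 Y.2, add_zero]

theorem uX_zero (h2 : (2 : F) = 0) (h : E' * E = 0) : uX h2 h (0 : QM E E') = 1 := by
  apply Subtype.ext
  change (1 : Matrix (Fin 4) (Fin 4) F) + 0 = 1
  rw [add_zero]

theorem uX_inv (h2 : (2 : F) = 0) (h : E' * E = 0) (X : QM E E') : (uX h2 h X)⁻¹ = uX h2 h (-X) := by
  rw [inv_eq_iff_mul_eq_one, uX_mul, add_neg_cancel, uX_zero]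

/-- conjugation by matrices commuting with `E`, `E'` -/
theorem conj_mem {Z : GL (Fin 4) F} (hE : (Z : Matrix (Fin 4) (Fin 4) F) * E = E * Z)
    (hE' : (Z : Matrix (Fin 4) (Fin 4) F) * E' = E' * Z) {X : Matrix (Fin 4) (Fin 4) F} (hX : X ∈ QM E E') :
    (Z : Matrix (Fin 4) (Fin 4) F) * X * ((Z⁻¹ : GL (Fin 4) F) : Matrix (Fin 4) (Fin 4) F) ∈ QM E E' := by
  have hi : ∀ Y : Matrix (Fin 4) (Fin 4) F, (Z : Matrix (Fin 4) (Fin 4) F) * Y = Y * Z →
      Y * ((Z⁻¹ : GL (Fin 4) F) : Matrix (Fin 4) (Fin 4) F) = ((Z⁻¹ : GL (Fin 4) F) : Matrix (Fin 4) (Fin 4) F) * Y := by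
    intro Y hY
    have h1 : ((Z⁻¹ : GL (Fin 4) F) : Matrix (Fin 4) (Fin 4) F) * ((Z : Matrix (Fin 4) (Fin 4) F) * Y) *
        ((Z⁻¹ : GL (Fin 4) F) : Matrix (Fin 4) (Fin 4) F) = ((Z⁻¹ : GL (Fin 4) F) : Matrix (Fin 4) (Fin 4) F) *
        (Y * Z) * ((Z⁻¹ : GL (Fin 4) F) : Matrix (Fin 4) (Fin 4) F) := by rw [hY]
    rw [← mul_assoc, ← Units.val_mul, inv_mul_cancel, Units.val_one, one_mul, mul_assoc, mul_assoc, ← Units.val_mul,
      mul_inv_cancel, Units.val_one, mul_one] at h1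
    exact h1
  refine ⟨?_, ?_⟩
  · rw [← mul_assoc, ← mul_assoc, ← hE, mul_assoc (Z : Matrix (Fin 4) (Fin 4) F) E X, hX.1]
  · rw [mul_assoc, ← hi E' hE', ← mul_assoc, mul_assoc (Z : Matrix (Fin 4) (Fin 4) F) X E', hX.2]

theorem cj_uX (h2 : (2 : F) = 0) (h : E' * E = 0) {Z : GL (Fin 4) F}
    (hE : (Z : Matrix (Fin 4) (Fin 4) F) * E = E * Z) (hE' : (Z : Matrix (Fin 4) (Fin 4) F) * E' = E' * Z)
    (X : QM E E') : cj Z (uX h2 h X) = uX h2 h ⟨_, conj_mem hE hE' X.2⟩ := by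
  apply Subtype.ext
  change (Z : Matrix (Fin 4) (Fin 4) F) * (1 + X.1) * ((Z⁻¹ : GL (Fin 4) F) : Matrix (Fin 4) (Fin 4) F) =
    1 + (Z : Matrix (Fin 4) (Fin 4) F) * X.1 * ((Z⁻¹ : GL (Fin 4) F) : Matrix (Fin 4) (Fin 4) F)
  rw [mul_add, mul_one, add_mul, ← Units.val_mul, mul_inv_cancel, Units.val_one]

/-- `X ↦ X - Z X Z⁻¹` is surjective on `QM E E'` if `Z` has no commuting `X ≠ 0` -/
theorem exists_pre [Finite F] {Z : GL (Fin 4) F}
    (hE : (Z : Matrix (Fin 4) (Fin 4) F) * E = E * Z) (hE' : (Z : Matrix (Fin 4) (Fin 4) F) * E' = E' * Z)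
    (hZ : ∀ X ∈ QM E E', (Z : Matrix (Fin 4) (Fin 4) F) * X = X * Z → X = 0) (X : QM E E') :
    ∃ Y : QM E E', Y - ⟨_, conj_mem hE hE' Y.2⟩ = X := by
  let δ : QM E E' →+ QM E E' :=
    { toFun := fun Y => Y - ⟨_, conj_mem hE hE' Y.2⟩
      map_zero' := by
        apply Subtype.ext
        change (0 : Matrix (Fin 4) (Fin 4) F) - (Z : Matrix (Fin 4) (Fin 4) F) * 0 * _ = 0
        rw [mul_zero, zero_mul, sub_zero]
      map_add' := fun a b => by
        apply Subtype.ext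
        change (a.1 + b.1) - (Z : Matrix (Fin 4) (Fin 4) F) * (a.1 + b.1) *
          ((Z⁻¹ : GL (Fin 4) F) : Matrix (Fin 4) (Fin 4) F) = (a.1 - (Z : Matrix (Fin 4) (Fin 4) F) * a.1 *
          ((Z⁻¹ : GL (Fin 4) F) : Matrix (Fin 4) (Fin 4) F)) + (b.1 - (Z : Matrix (Fin 4) (Fin 4) F) * b.1 *
          ((Z⁻¹ : GL (Fin 4) F) : Matrix (Fin 4) (Fin 4) F))
        rw [mul_add, add_mul]
        abel }
  have hfin : Finite (QM E E') := inferInstance
  have hinj : Function.Injective δ := by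
    rw [injective_iff_map_eq_zero]
    intro Y hY
    apply Subtype.ext
    apply hZ _ Y.2
    have h1 : Y.1 - (Z : Matrix (Fin 4) (Fin 4) F) * Y.1 * ((Z⁻¹ : GL (Fin 4) F) : Matrix (Fin 4) (Fin 4) F) = 0 :=
      congrArg Subtype.val hY
    rw [sub_eq_zero] at h1
    have h3 := congrArg (fun M => M * (Z : Matrix (Fin 4) (Fin 4) F)) h1
    simp only [mul_assoc] at h3
    rw [← Units.val_mul, inv_mul_cancel, Units.val_one, mul_one] at h3
    exact h3.symm
  exact (Finite.surjective_of_injective hinj) X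

end overF

section grp

variable {F : Type} [Field F] {G : Type} [Group G] {N : Subgroup G}
variable {E E' : Matrix (Fin 4) (Fin 4) F}

/-- the radical group -/
noncomputable def UQ (e : N ≃* Matrix.ProjectiveSpecialLinearGroup (Fin 4) F) (h2 : (2 : F) = 0) (h : E' * E = 0) :
    Subgroup G where
  carrier := {g | ∃ X : QM E E', g = toN e (uX h2 h X)}
  one_mem' := ⟨0, by rw [uX_zero, map_one]⟩
  mul_mem' := by
    rintro _ _ ⟨X, rfl⟩ ⟨Y, rfl⟩
    exact ⟨X + Y, by rw [← map_mul, uX_mul]⟩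
  inv_mem' := by
    rintro _ ⟨X, rfl⟩
    exact ⟨-X, by rw [← map_inv, uX_inv]⟩

/-- the rule for `q = 4` -/
theorem rule_four {Ω ι : Type} [Finite F] [Finite G] [Nonempty Ω] [MulAction G Ω] [Finite ι]
    (hE : Env G Ω N) (e : N ≃* Matrix.ProjectiveSpecialLinearGroup (Fin 4) F) (h2 : (2 : F) = 0) (h : E' * E = 0)
    {x : ι → G} (hx : ∀ i, x i ^ 15 = 1) (hc : ∀ i j, x i * x j = x j * x i) (hcov : Cov Ω x)
    (Z : ι → GL (Fin 4) F) (hZ : ∀ i s, x i * toN e s * (x i)⁻¹ = toN e (cj (Z i) s))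
    (hZE : ∀ i, (Z i : Matrix (Fin 4) (Fin 4) F) * E = E * Z i)
    (hZE' : ∀ i, (Z i : Matrix (Fin 4) (Fin 4) F) * E' = E' * Z i)
    (hZX : ∀ i, ∀ X ∈ QM E E', (Z i : Matrix (Fin 4) (Fin 4) F) * X = X * Z i → X = 0)
    (X : QM E E') (hX : X ≠ 0) : False := by
  let U := UQ e h2 h
  have hUsq : ∀ u : U, u ^ 2 = 1 := by
    rintro ⟨_, Y, rfl⟩
    apply Subtype.ext
    change (toN e (uX h2 h Y)) ^ 2 = 1
    rw [← map_pow, pow_two, uX_mul]
    have h3 : Y + Y = 0 := by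
      apply Subtype.ext
      change Y.1 + Y.1 = 0
      rw [← two_smul F, h2, zero_smul]
    rw [h3, uX_zero, map_one]
  have hUp : IsPGroup 2 U := fun u => ⟨1, by rw [pow_one]; exact hUsq u⟩
  have hcop : (15 : ℕ).Coprime (Nat.card U) := by
    obtain ⟨k, hk⟩ := (IsPGroup.iff_card (p := 2)).1 hUp
    rw [hk]
    apply Nat.Coprime.pow_right
    norm_num
  have hconj : ∀ (i : ι) (Y : QM E E'), x i * toN e (uX h2 h Y) * (x i)⁻¹ =
      toN e (uX h2 h ⟨_, conj_mem (hZE i) (hZE' i) Y.2⟩) := by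
    intro i Y
    rw [hZ, cj_uX h2 h (hZE i) (hZE' i)]
  have hne : toN e (uX h2 h X) ≠ 1 := by
    intro h1
    rw [toN_eq_one_iff, pr_eq_one_iff, Matrix.SpecialLinearGroup.mem_center_iff] at h1
    obtain ⟨c, -, hc1⟩ := h1
    change Matrix.scalar (Fin 4) c = 1 + X.1 at hc1
    apply hX
    have h4 : X.1 = (c - 1) • (1 : Matrix (Fin 4) (Fin 4) F) := by
      rw [sub_smul, one_smul, Matrix.smul_one_eq_diagonal, eq_sub_iff_add_eq, add_comm, ← hc1]
      rfl
    have h5 := QM_mul h X.2 X.2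
    rw [h4, Matrix.smul_mul, Matrix.mul_smul, Matrix.mul_one, smul_smul] at h5
    have h6 := congrFun (congrFun h5 0) 0
    rw [Matrix.smul_apply, Matrix.one_apply_eq, Matrix.zero_apply, smul_eq_mul, mul_one, mul_self_eq_zero] at h6
    apply Subtype.ext
    rw [h4, h6, zero_smul]
    rfl
  refine hE.not_all hne fun ω => ?_
  obtain ⟨i, hi⟩ := H338.RC.cover_gen (N := fun _ : ι => 15) (U := U) (fun _ => by norm_num) hx hc (by
      rintro i _ ⟨Y, rfl⟩
      rw [hconj]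
      exact ⟨_, rfl⟩) (by
      rintro _ ⟨Y, rfl⟩ _ ⟨Y', rfl⟩
      rw [← map_mul, ← map_mul, uX_mul, uX_mul, add_comm]) (fun i j hi _ => absurd hcop hi) ω
      (fun u _ => hcov (u • ω))
  apply comm_le hi
  obtain ⟨Y, hY⟩ := exists_pre (hZE i) (hZE' i) (hZX i) X
  have h3 := mem_cmm (U := U) (x := x i) (u := toN e (uX h2 h Y)) ⟨Y, rfl⟩
  have h4 : toN e (uX h2 h Y) * x i * (toN e (uX h2 h Y))⁻¹ * (x i)⁻¹ =
      toN e (uX h2 h Y) * (x i * toN e (uX h2 h Y) * (x i)⁻¹)⁻¹ := by group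
  rw [h4, hconj, ← map_inv, ← map_mul, uX_inv, uX_mul, ← sub_eq_add_neg, hY] at h3
  exact h3

end grp

section ids

variable {S : Type*} [CommRing S] {b w : S}

/-- the commutative identities -/
theorem ids (h2 : (2 : S) = 0) (hb : b ^ 4 + b ^ 3 + b ^ 2 + b + 1 = 0) (hw : w ^ 2 = w + 1) :
    let c := b + b ^ 4
    let e₁ := c + w + 1
    let e₂ := c + w
    b ^ 5 = 1 ∧ c * e₁ = w * e₁ ∧ e₂ * c = (w + 1) * e₂ ∧ e₂ * e₁ = 0 ∧ e₁ * e₁ = e₁ ∧ e₂ * e₂ = e₂ ∧
      (b * e₁ + e₂) ^ 5 = 1 ∧ (b * e₁ + b ^ 4 * e₂) * (b * e₂ + e₁) = b * e₁ + e₂ ∧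
      (b * e₁ + b ^ 4 * e₂) ^ 5 = 1 ∧ (b * e₁ + b ^ 4 * e₂) + (b * e₁ + b ^ 4 * e₂) ^ 4 = c := by
  intro c e₁ e₂
  have hb5 : b ^ 5 = 1 := by linear_combination (b - 1) * hb
  have hc2 : c ^ 2 = c + 1 := by
    have : c ^ 2 = b ^ 2 + 2 * b ^ 5 + b ^ 5 * b ^ 3 := by ring
    rw [this, hb5, h2]
    linear_combination hb - (b + b ^ 4 + 1) * h2
  have h1 : e₁ + e₂ = 1 := by
    change (c + w + 1) + (c + w) = 1
    linear_combination (c + w) * h2
  have h12 : e₂ * e₁ = 0 := by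
    change (c + w) * (c + w + 1) = 0
    linear_combination hc2 + hw + (c * w + c + w + 1) * h2
  have h11 : e₁ * e₁ = e₁ := by linear_combination e₁ * h1 - h12
  have h22 : e₂ * e₂ = e₂ := by linear_combination e₂ * h1 - h12
  have hmul : ∀ p q p' q' : S, (p * e₁ + q * e₂) * (p' * e₁ + q' * e₂) = (p * p') * e₁ + (q * q') * e₂ := by
    intro p q p' q'
    linear_combination (p * p') * h11 + (q * q') * h22 + (p * q' + q * p') * h12
  have hpow : ∀ (p q : S) (n : ℕ), (p * e₁ + q * e₂) ^ n = p ^ n * e₁ + q ^ n * e₂ := by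
    intro p q n
    induction n with
    | zero => rw [pow_zero, pow_zero, pow_zero, one_mul, one_mul, h1]
    | succ n ih => rw [pow_succ, ih, hmul, pow_succ, pow_succ]
  refine ⟨hb5, ?_, ?_, h12, h11, h22, ?_, ?_, ?_, ?_⟩
  · change c * (c + w + 1) = w * (c + w + 1)
    linear_combination hc2 - hw + (c - w) * h2
  · change (c + w) * c = (w + 1) * (c + w)
    linear_combination hc2 - hw - w * h2
  · have h3 := hpow b 1 5
    rw [one_mul] at h3
    rw [h3, hb5, one_pow, one_mul, one_mul, h1]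
  · have h3 := hmul b (b ^ 4) 1 b
    have h4 : b ^ 4 * b = 1 := by rw [← pow_succ, hb5]
    rw [h4, one_mul, one_mul, mul_one] at h3
    rw [add_comm (b * e₂) e₁, h3]
  · rw [hpow, hb5, ← pow_mul, mul_comm 4 5, pow_mul, hb5, one_pow, one_mul, one_mul, h1]
  · rw [hpow, ← pow_mul]
    have h3 : b ^ (4 * 4) = b := by
      have : b ^ (4 * 4) = (b ^ 5) ^ 3 * b := by ring
      rw [this, hb5, one_pow, one_mul]
    rw [h3]
    change b * e₁ + b ^ 4 * e₂ + (b ^ 4 * e₁ + b * e₂) = b + b ^ 4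
    linear_combination (b + b ^ 4) * h1

end ids

section final

variable {F : Type} [Field F] {G : Type} [Group G] {N : Subgroup G}

theorem coe_map_gl {K : Subfield F} (k : GL (Fin 4) K) (i j : Fin 4) :
    (Matrix.GeneralLinearGroup.map K.subtype k : Matrix (Fin 4) (Fin 4) F) i j =
      ((k : Matrix (Fin 4) (Fin 4) K) i j : F) := rfl

/-- **`q = 4`, `h` of order 15** -/
theorem dead_four {Ω ι : Type} [Finite F] [Finite G] [Nonempty Ω] [MulAction G Ω] [Finite ι]
    (hE : Env G Ω N) (e : N ≃* Matrix.ProjectiveSpecialLinearGroup (Fin 4) F) {x : ι → G} {r : ι → ℕ}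
    (hx : PF x r) (hcov : Cov Ω x) {i₀ : ι} {σ : F ≃+* F} (hσ1 : σ ≠ 1) (hσ : cS hE.norm e (x i₀) = phi 4 F σ)
    {K : Subfield F} (hK : ∀ a, a ∈ K ↔ σ a = a) (hK2 : Nat.card K = 2) {k : ι → GL (Fin 4) K}
    (hk : ∀ i, i ≠ i₀ → cS hE.norm e (x i) = theta 4 K.subtype (k i))
    (hkc : ∀ i j, i ≠ i₀ → j ≠ i₀ → k i * k j = k j * k i) (hk1 : ∀ i, i ≠ i₀ → k i ^ r i = 1 ∧ k i ≠ 1)
    (hr0 : r i₀ = 2) {i₃ i₅ : ι} (h3 : i₃ ≠ i₀) (h5 : i₅ ≠ i₀) (hr3 : r i₃ = 3) (hr5 : r i₅ = 5)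
    (hall : ∀ i, i = i₀ ∨ i = i₃ ∨ i = i₅) : False := by
  classical
  have hN := hE.norm
  have hinj := cS_inj hN e hE.cent
  have h2K := char_two hK2
  have h2 : (2 : F) = 0 := by
    have := congrArg K.subtype h2K
    rwa [map_ofNat, map_zero] at this
  -- the element `w`
  have hσ2 : ∀ a, σ (σ a) = a := by
    intro a
    have h6 : σ ^ 2 = 1 := by
      apply phi_injective (n := 4) (by norm_num)
      rw [map_pow, ← hσ, ← map_pow, ← hr0, hx.pow, map_one, map_one]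
    exact DFunLike.congr_fun h6 a
  obtain ⟨w, hw0⟩ : ∃ d, σ d ≠ d := by
    by_contra hno
    push Not at hno
    exact hσ1 (RingEquiv.ext hno)
  have hK01 : ∀ a, σ a = a → a = 0 ∨ a = 1 := by
    intro a ha
    rcases eq_zero_or_one hK2 ⟨a, (hK a).2 ha⟩ with h | h
    · exact Or.inl (congrArg Subtype.val h)
    · exact Or.inr (congrArg Subtype.val h)
  have hquad : ∀ d, σ d ≠ d → σ d = d + 1 ∧ d ^ 2 = d + 1 := by
    intro d hd
    have hsum : d + σ d = 1 := by
      rcases hK01 (d + σ d) (by rw [map_add, hσ2, add_comm]) with h | h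
      · exfalso
        apply hd
        linear_combination h - d * h2
      · exact h
    have hprod : d * σ d = 1 := by
      rcases hK01 (d * σ d) (by rw [map_mul, hσ2, mul_comm]) with h | h
      · exfalso
        rcases mul_eq_zero.1 h with h | h
        · apply hd
          rw [h, map_zero]
        · apply hd
          have : d = 0 := σ.injective (by rw [h, map_zero])
          rw [this, map_zero]
      · exact h
    have hσd : σ d = d + 1 := by linear_combination hsum - d * h2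
    refine ⟨hσd, ?_⟩
    rw [hσd] at hprod
    linear_combination hprod - d * h2
  obtain ⟨hσw, hw2⟩ := hquad w hw0
  have hno5 : ∀ d : F, d ^ 5 = 1 → d = 1 := by
    intro d hd
    by_cases hσd : σ d = d
    · rcases hK01 d hσd with h | h
      · rw [h, zero_pow (by norm_num)] at hd
        exact absurd hd zero_ne_one
      · exact h
    · exfalso
      obtain ⟨-, h⟩ := hquad d hσd
      have h6 : d = 0 := by linear_combination hd - (d ^ 3 + d ^ 2 + 2 * d + 3) * h - (2 * d + 1) * h2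
      rw [h6, zero_pow (by norm_num)] at hd
      exact zero_ne_one hd
  -- matrices over `K`
  obtain ⟨hb5, hb1⟩ := hk1 i₅ h5
  obtain ⟨ha3, ha1⟩ := hk1 i₃ h3
  rw [hr5] at hb5
  rw [hr3] at ha3
  have hsumB := five_eq hK2 hb5 hb1
  obtain ⟨hCA, hC2⟩ := three_eq hK2 ha3 ha1 hb5 hb1 (hkc i₃ i₅ h3 h5)
  let m : Matrix (Fin 4) (Fin 4) K →+* Matrix (Fin 4) (Fin 4) F := K.subtype.mapMatrix
  let A : GL (Fin 4) F := Matrix.GeneralLinearGroup.map K.subtype (k i₃)
  let B : GL (Fin 4) F := Matrix.GeneralLinearGroup.map K.subtype (k i₅)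
  have hmA : m (k i₃ : Matrix (Fin 4) (Fin 4) K) = (A : Matrix (Fin 4) (Fin 4) F) := rfl
  have hmB : m (k i₅ : Matrix (Fin 4) (Fin 4) K) = (B : Matrix (Fin 4) (Fin 4) F) := rfl
  have hB4 : (B : Matrix (Fin 4) (Fin 4) F) ^ 4 + (B : Matrix (Fin 4) (Fin 4) F) ^ 3 +
      (B : Matrix (Fin 4) (Fin 4) F) ^ 2 + (B : Matrix (Fin 4) (Fin 4) F) + 1 = 0 := by
    have := congrArg m hsumB
    simpa [map_add, map_pow, hmB] using this
  -- the commutative ring
  let s : Set (Matrix (Fin 4) (Fin 4) F) := {(B : Matrix (Fin 4) (Fin 4) F)}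
  have hcm : IsMulCommutative (Algebra.adjoin F s) := Algebra.isMulCommutative_adjoin F (by
    rintro a rfl b rfl; rfl)
  let b : Algebra.adjoin F s := ⟨B, Algebra.subset_adjoin rfl⟩
  let w' : Algebra.adjoin F s := algebraMap F _ w
  have hI := ids (b := b) (w := w') (by
      have : (2 : Algebra.adjoin F s) = algebraMap F _ 2 := by rw [map_ofNat]
      rw [this, h2, map_zero]) (Subtype.ext hB4) (by
      rw [← map_pow, hw2, map_add, map_one])
  let v := (Algebra.adjoin F s).val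
  let W : Matrix (Fin 4) (Fin 4) F := algebraMap F _ w
  have hvb : v b = (B : Matrix (Fin 4) (Fin 4) F) := rfl
  have hvw : v w' = W := rfl
  let C : Matrix (Fin 4) (Fin 4) F := (B : Matrix (Fin 4) (Fin 4) F) + (B : Matrix (Fin 4) (Fin 4) F) ^ 4
  let E₁ : Matrix (Fin 4) (Fin 4) F := C + W + 1
  let E₂ : Matrix (Fin 4) (Fin 4) F := C + W
  obtain ⟨-, i1, i2, i3, i4, i5, i6, i7, i8, i9⟩ := hI
  replace i1 : C * E₁ = W * E₁ := by
    have := congrArg v i1
    simpa only [map_add, map_mul, map_pow, map_one, hvb, hvw] using this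
  replace i2 : E₂ * C = (W + 1) * E₂ := by
    have := congrArg v i2
    simpa only [map_add, map_mul, map_pow, map_one, hvb, hvw] using this
  replace i3 : E₂ * E₁ = 0 := by
    have := congrArg v i3
    simpa only [map_add, map_mul, map_pow, map_one, map_zero, hvb, hvw] using this
  replace i4 : E₁ * E₁ = E₁ := by
    have := congrArg v i4
    simpa only [map_add, map_mul, map_pow, map_one, map_zero, hvb, hvw] using this
  replace i5 : E₂ * E₂ = E₂ := by
    have := congrArg v i5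
    simpa only [map_add, map_mul, map_pow, map_one, map_zero, hvb, hvw] using this
  replace i6 : ((B : Matrix (Fin 4) (Fin 4) F) * E₁ + E₂) ^ 5 = 1 := by
    have := congrArg v i6
    simpa only [map_add, map_mul, map_pow, map_one, map_zero, hvb, hvw] using this
  replace i7 : ((B : Matrix (Fin 4) (Fin 4) F) * E₁ + (B : Matrix (Fin 4) (Fin 4) F) ^ 4 * E₂) *
      ((B : Matrix (Fin 4) (Fin 4) F) * E₂ + E₁) = (B : Matrix (Fin 4) (Fin 4) F) * E₁ + E₂ := by
    have := congrArg v i7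
    simpa only [map_add, map_mul, map_pow, map_one, map_zero, hvb, hvw] using this
  replace i8 : ((B : Matrix (Fin 4) (Fin 4) F) * E₁ + (B : Matrix (Fin 4) (Fin 4) F) ^ 4 * E₂) ^ 5 = 1 := by
    have := congrArg v i8
    simpa only [map_add, map_mul, map_pow, map_one, map_zero, hvb, hvw] using this
  replace i9 : ((B : Matrix (Fin 4) (Fin 4) F) * E₁ + (B : Matrix (Fin 4) (Fin 4) F) ^ 4 * E₂) +
      ((B : Matrix (Fin 4) (Fin 4) F) * E₁ + (B : Matrix (Fin 4) (Fin 4) F) ^ 4 * E₂) ^ 4 = C := by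
    have := congrArg v i9
    simpa only [map_add, map_mul, map_pow, map_one, map_zero, hvb, hvw] using this
  -- the elements `t`, `Y`
  let t : Matrix.SpecialLinearGroup (Fin 4) F :=
    ⟨(B : Matrix (Fin 4) (Fin 4) F) * E₁ + E₂, det_one_of_pow _ i6 hno5⟩
  let M : Matrix (Fin 4) (Fin 4) F →+* Matrix (Fin 4) (Fin 4) F := (σ : F →+* F).mapMatrix
  have hMK : ∀ g : GL (Fin 4) K, M (Matrix.GeneralLinearGroup.map K.subtype g : Matrix (Fin 4) (Fin 4) F) =
      (Matrix.GeneralLinearGroup.map K.subtype g : Matrix (Fin 4) (Fin 4) F) := by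
    intro g
    ext i j
    exact (hK _).1 (g.1 i j).2
  have hMB : M (B : Matrix (Fin 4) (Fin 4) F) = (B : Matrix (Fin 4) (Fin 4) F) := hMK _
  have hMC : M C = C := by
    change M ((B : Matrix (Fin 4) (Fin 4) F) + (B : Matrix (Fin 4) (Fin 4) F) ^ 4) = _
    rw [map_add, map_pow, hMB]
  have hMW : M W = W + 1 := by
    have h6 : M W = algebraMap F (Matrix (Fin 4) (Fin 4) F) (σ w) := by
      ext i j
      change σ (algebraMap F (Matrix (Fin 4) (Fin 4) F) w i j) = _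
      rw [Matrix.algebraMap_matrix_apply, Matrix.algebraMap_matrix_apply]
      split_ifs <;> simp
    rw [h6, hσw, map_add, map_one]
  have h2M : (1 : Matrix (Fin 4) (Fin 4) F) + 1 = 0 := by
    have : (1 : Matrix (Fin 4) (Fin 4) F) + 1 = algebraMap F _ 2 := by rw [map_ofNat, one_add_one_eq_two]
    rw [this, h2, map_zero]
  have hME₁ : M E₁ = E₂ := by
    change M (C + W + 1) = C + W
    rw [map_add, map_add, hMC, hMW, map_one, ← add_assoc, add_assoc, h2M, add_zero]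
  have hME₂ : M E₂ = E₁ := by
    change M (C + W) = C + W + 1
    rw [map_add, hMC, hMW]
    exact (add_assoc C W 1).symm
  have hft : (fld σ t : Matrix (Fin 4) (Fin 4) F) = (B : Matrix (Fin 4) (Fin 4) F) * E₂ + E₁ := by
    have : (fld σ t : Matrix (Fin 4) (Fin 4) F) = M ((B : Matrix (Fin 4) (Fin 4) F) * E₁ + E₂) := rfl
    rw [this, map_add, map_mul, hMB, hME₁, hME₂]
  let Y : Matrix.SpecialLinearGroup (Fin 4) F := t * (fld σ t)⁻¹
  have hY : (Y : Matrix (Fin 4) (Fin 4) F) =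
      (B : Matrix (Fin 4) (Fin 4) F) * E₁ + (B : Matrix (Fin 4) (Fin 4) F) ^ 4 * E₂ := by
    have h6 : ((B : Matrix (Fin 4) (Fin 4) F) * E₁ + (B : Matrix (Fin 4) (Fin 4) F) ^ 4 * E₂) *
        (fld σ t : Matrix (Fin 4) (Fin 4) F) = (t : Matrix (Fin 4) (Fin 4) F) := by
      rw [hft]; exact i7
    change (t : Matrix (Fin 4) (Fin 4) F) * ((fld σ t)⁻¹ : Matrix.SpecialLinearGroup (Fin 4) F).1 = _
    rw [← h6, mul_assoc, ← Matrix.SpecialLinearGroup.coe_mul, mul_inv_cancel, Matrix.SpecialLinearGroup.coe_one,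
      mul_one]
  -- commutation with `C`
  have hWc : ∀ X : Matrix (Fin 4) (Fin 4) F, W * X = X * W := fun X => Algebra.commutes w X
  have hEc : ∀ X : Matrix (Fin 4) (Fin 4) F, X * C = C * X → X * E₁ = E₁ * X ∧ X * E₂ = E₂ * X := by
    intro X hX
    constructor
    · change X * (C + W + 1) = (C + W + 1) * X
      rw [mul_add, mul_add, add_mul, add_mul, hX, hWc, mul_one, one_mul]
    · change X * (C + W) = (C + W) * X
      rw [mul_add, add_mul, hX, hWc]
  have hker : ∀ X ∈ QM E₁ E₂, C * X = X * C → X = 0 := by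
    intro X hX h
    have h6 : C * X = W * X := by
      rw [← hX.1, ← mul_assoc, i1, mul_assoc]
    have h7 : X * C = X * (W + 1) := by
      have h8 : (W + 1) * X = X * (W + 1) := by rw [add_mul, mul_add, hWc, one_mul, mul_one]
      calc X * C = X * E₂ * C := by rw [hX.2]
        _ = X * ((W + 1) * E₂) := by rw [mul_assoc, i2]
        _ = (W + 1) * (X * E₂) := by rw [← mul_assoc, ← h8, mul_assoc]
        _ = X * (W + 1) := by rw [hX.2, h8]
    rw [h6, h7, mul_add, mul_one, hWc] at h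
    exact left_eq_add.1 h
  -- the new cover
  have hYB : (Y : Matrix (Fin 4) (Fin 4) F) * C = C * Y := by
    rw [hY]
    have h6 : Commute ((B : Matrix (Fin 4) (Fin 4) F) * E₁ + (B : Matrix (Fin 4) (Fin 4) F) ^ 4 * E₂)
      ((B : Matrix (Fin 4) (Fin 4) F) * E₁ + (B : Matrix (Fin 4) (Fin 4) F) ^ 4 * E₂) := Commute.refl _
    have h7 := (h6.add_right (h6.pow_right 4)).eq
    rwa [i9] at h7
  let Z : ι → GL (Fin 4) F := fun i => if i = i₀ then (Y : GL (Fin 4) F) else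
    Matrix.GeneralLinearGroup.map K.subtype (k i)
  let x' : ι → G := Function.update x i₀ (toN e Y)
  have hkB : ∀ i, i ≠ i₀ → (Matrix.GeneralLinearGroup.map K.subtype (k i) : Matrix (Fin 4) (Fin 4) F) *
      (B : Matrix (Fin 4) (Fin 4) F) = (B : Matrix (Fin 4) (Fin 4) F) *
      (Matrix.GeneralLinearGroup.map K.subtype (k i) : Matrix (Fin 4) (Fin 4) F) := by
    intro i hi
    rw [← Units.val_mul, ← map_mul, hkc i i₅ hi h5, map_mul, Units.val_mul]
  have hkC : ∀ i, i ≠ i₀ → (Matrix.GeneralLinearGroup.map K.subtype (k i) : Matrix (Fin 4) (Fin 4) F) * C = C *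
      (Matrix.GeneralLinearGroup.map K.subtype (k i) : Matrix (Fin 4) (Fin 4) F) := by
    intro i hi
    have h6 : Commute (Matrix.GeneralLinearGroup.map K.subtype (k i) : Matrix (Fin 4) (Fin 4) F)
      (B : Matrix (Fin 4) (Fin 4) F) := hkB i hi
    exact (h6.add_right (h6.pow_right 4)).eq
  have hkt : ∀ i, i ≠ i₀ → (Matrix.GeneralLinearGroup.map K.subtype (k i) : Matrix (Fin 4) (Fin 4) F) * t =
      t * (Matrix.GeneralLinearGroup.map K.subtype (k i) : Matrix (Fin 4) (Fin 4) F) := by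
    intro i hi
    obtain ⟨h6, h7⟩ := hEc _ (hkC i hi)
    change _ * ((B : Matrix (Fin 4) (Fin 4) F) * E₁ + E₂) = ((B : Matrix (Fin 4) (Fin 4) F) * E₁ + E₂) * _
    rw [mul_add, add_mul, h7, ← mul_assoc, hkB i hi, mul_assoc, h6, mul_assoc]
  have hcj : ∀ i, i ≠ i₀ → cj (Matrix.GeneralLinearGroup.map K.subtype (k i)) t = t := by
    intro i hi
    apply Subtype.ext
    rw [coe_cj, hkt i hi, mul_assoc, ← Units.val_mul, mul_inv_cancel, Units.val_one, mul_one]
  have hxi : ∀ i, i ≠ i₀ → ∀ s, x i * toN e s * (x i)⁻¹ =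
      toN e (cj (Matrix.GeneralLinearGroup.map K.subtype (k i)) s) := by
    intro i hi s
    exact conj_toN hN e (a := cj (Matrix.GeneralLinearGroup.map K.subtype (k i))) (hk i hi) s
  -- the replacement of `x i₀`
  have hcovY : Cov Ω x' := by
    have h6 := Cov.mv_comm hcov i₀ (c := toN e t) (fun j hj => by
      have h7 := hxi j hj t
      rw [hcj j hj, mul_inv_eq_iff_eq_mul] at h7
      exact h7.symm)
    have h7 : toN e t * x i₀ * (toN e t)⁻¹ * (x i₀)⁻¹ = toN e Y := by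
      have h8 : toN e t * x i₀ * (toN e t)⁻¹ * (x i₀)⁻¹ = toN e t * (x i₀ * toN e t * (x i₀)⁻¹)⁻¹ := by group
      rw [h8, conj_toN hN e (a := fld σ) hσ, ← map_inv, ← map_mul]
    rw [h7] at h6
    exact h6
  have hx0 : x' i₀ = toN e Y := Function.update_self _ _ _
  have hxj : ∀ i, i ≠ i₀ → x' i = x i := fun i hi => Function.update_of_ne hi _ _
  have hYcj : ∀ i, i ≠ i₀ → cj (Matrix.GeneralLinearGroup.map K.subtype (k i)) Y = Y := by
    intro i hi
    have h6 : cj (Matrix.GeneralLinearGroup.map K.subtype (k i)) (fld σ t) = fld σ t := by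
      have h7 := fld_cj σ (Matrix.GeneralLinearGroup.map K.subtype (k i)) t
      rw [hcj i hi] at h7
      have h8 : mapGL σ (Matrix.GeneralLinearGroup.map K.subtype (k i)) =
          Matrix.GeneralLinearGroup.map K.subtype (k i) := by
        apply Units.ext
        rw [coe_mapGL]
        ext a b
        exact (hK _).1 ((k i).1 a b).2
      rw [h8] at h7
      exact h7.symm
    change cj _ (t * (fld σ t)⁻¹) = t * (fld σ t)⁻¹
    rw [map_mul, map_inv, h6, hcj i hi]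
  have hY5 : Y ^ 5 = 1 := by
    apply Subtype.ext
    rw [Matrix.SpecialLinearGroup.coe_pow, hY, i8]
    rfl
  have hx15 : ∀ i, x' i ^ 15 = 1 := by
    intro i
    rcases hall i with rfl | rfl | rfl
    · rw [hx0, ← map_pow, show 15 = 5 * 3 by norm_num, pow_mul, hY5, one_pow, map_one]
    · rw [hxj _ h3, show 15 = 3 * 5 by norm_num, pow_mul]
      have := hx.pow i
      rw [hr3] at this
      rw [this, one_pow]
    · rw [hxj _ h5, show 15 = 5 * 3 by norm_num, pow_mul]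
      have := hx.pow i
      rw [hr5] at this
      rw [this, one_pow]
  have hxY : ∀ i, i ≠ i₀ → x i * toN e Y = toN e Y * x i := by
    intro i hi
    have h7 := hxi i hi Y
    rwa [hYcj i hi, mul_inv_eq_iff_eq_mul] at h7
  have hcomm : ∀ i j, x' i * x' j = x' j * x' i := by
    intro i j
    by_cases hi : i = i₀
    · by_cases hj : j = i₀
      · rw [hi, hj]
      · rw [hi, hx0, hxj j hj, hxY j hj]
    · by_cases hj : j = i₀
      · rw [hj, hx0, hxj i hi, hxY i hi]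
      · rw [hxj i hi, hxj j hj, hx.comm]
  have hZ0 : Z i₀ = (Y : GL (Fin 4) F) := if_pos rfl
  have hZi : ∀ i, i ≠ i₀ → Z i = Matrix.GeneralLinearGroup.map K.subtype (k i) := fun i hi => if_neg hi
  have hZC : ∀ i, (Z i : Matrix (Fin 4) (Fin 4) F) * C = C * Z i := by
    intro i
    by_cases hi : i = i₀
    · rw [hi, hZ0]
      exact hYB
    · rw [hZi i hi]
      exact hkC i hi
  have hCA' : C = (A : Matrix (Fin 4) (Fin 4) F) ∨ C = (A : Matrix (Fin 4) (Fin 4) F) ^ 2 := by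
    rcases hCA with h | h
    · left
      have := congrArg m h
      simpa only [map_add, map_pow, hmA, hmB] using this
    · right
      have := congrArg m h
      simpa only [map_add, map_pow, hmA, hmB] using this
  -- a nonzero element of `QM`
  have hCent : C 0 0 ∈ K := by
    have h6 : C = m ((k i₅ : Matrix (Fin 4) (Fin 4) K) + (k i₅ : Matrix (Fin 4) (Fin 4) K) ^ 4) := by
      rw [map_add, map_pow, hmB]
    rw [h6]
    exact SetLike.coe_mem _
  have hW00 : W 0 0 = w := by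
    change algebraMap F (Matrix (Fin 4) (Fin 4) F) w 0 0 = w
    rw [Matrix.algebraMap_matrix_apply, if_pos rfl]
    rfl
  have hwK : w ∉ K := fun h => hw0 ((hK w).1 h)
  have hE₁0 : E₁ ≠ 0 := by
    intro h6
    have h7 := congrFun (congrFun h6 0) 0
    change C 0 0 + W 0 0 + (1 : Matrix (Fin 4) (Fin 4) F) 0 0 = 0 at h7
    rw [hW00, Matrix.one_apply_eq] at h7
    apply hwK
    have h8 : w = -(C 0 0) - 1 := by linear_combination h7
    rw [h8]
    exact K.sub_mem (K.neg_mem hCent) K.one_mem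
  have hE₂0 : E₂ ≠ 0 := by
    intro h6
    have h7 := congrFun (congrFun h6 0) 0
    change C 0 0 + W 0 0 = 0 at h7
    rw [hW00] at h7
    apply hwK
    have h8 : w = -(C 0 0) := by linear_combination h7
    rw [h8]
    exact K.neg_mem hCent
  obtain ⟨X, hX0⟩ : ∃ X : QM E₁ E₂, X ≠ 0 := by
    obtain ⟨p, i, hpi⟩ : ∃ p i, E₁ p i ≠ 0 := by
      by_contra hno
      push Not at hno
      exact hE₁0 (Matrix.ext hno)
    obtain ⟨j, q, hjq⟩ : ∃ j q, E₂ j q ≠ 0 := by
      by_contra hno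
      push Not at hno
      exact hE₂0 (Matrix.ext hno)
    refine ⟨⟨E₁ * Matrix.single i j 1 * E₂, ?_, ?_⟩, ?_⟩
    · rw [← mul_assoc, ← mul_assoc, i4]
    · rw [mul_assoc, i5]
    · intro h6
      have h7 := congrFun (congrFun (congrArg Subtype.val h6) p) q
      change (E₁ * Matrix.single i j (1 : F) * E₂ : Matrix (Fin 4) (Fin 4) F) p q = 0 at h7
      rw [Matrix.mul_apply, Finset.sum_eq_single j] at h7
      · rw [Matrix.mul_single_apply_same, mul_one] at h7
        exact (mul_ne_zero hpi hjq) h7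
      · intro l _ hl
        rw [Matrix.mul_single_apply_of_ne _ _ _ _ _ hl, zero_mul]
      · intro h; exact absurd (Finset.mem_univ _) h
  refine rule_four hE e h2 i3 hx15 hcomm hcovY Z (fun i s => ?_) (fun i => (hEc _ (hZC i)).1)
    (fun i => (hEc _ (hZC i)).2) (fun i X₁ hX₁ hZX => ?_) X hX0
  · by_cases hi : i = i₀
    · rw [hi, hx0, hZ0, ← map_inv, ← map_mul, ← map_mul]
      congr 1
    · rw [hxj i hi, hZi i hi, hxi i hi]
  · apply hker X₁ hX₁
    rcases hall i with hi | hi | hi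
    · rw [hi, hZ0] at hZX
      have h6 : Commute (Y : Matrix (Fin 4) (Fin 4) F) X₁ := hZX
      rw [hY] at h6
      have h7 := (h6.add_left (h6.pow_left 4)).eq
      rwa [i9] at h7
    · rw [hi, hZi _ h3] at hZX
      have h6 : Commute (A : Matrix (Fin 4) (Fin 4) F) X₁ := hZX
      rcases hCA' with h | h
      · rw [h]; exact h6.eq
      · rw [h]; exact (h6.pow_left 2).eq
    · rw [hi, hZi _ h5] at hZX
      have h6 : Commute (B : Matrix (Fin 4) (Fin 4) F) X₁ := hZX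
      exact (h6.add_left (h6.pow_left 4)).eq

end final

end Cfsg.Agent.H930.RC
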