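import Cfsg.Agent.H930.RC.Base
import Cfsg.Agent.Lib.AutSL2Out

/-!
# S3510, linear row, box A5: one of the `x i` is a field automorphism (helper930)
-/

set_option autoImplicit false

namespace Cfsg.Agent.H930.RC

open Cfsg.Agent.H106.RC MulAction
open Cfsg.Agent.ClassicalGeometry.AutPSL.Root Cfsg.Agent.ClassicalGeometry.AutPSL.Auto
open Cfsg.Agent.H199.PslAut Cfsg.Agent.H199.PslField
open Cfsg.Agent.H380.RC

section sub

variable {F : Type} [Field F] {n : ℕ}

/-- the matrices fixed by `σ` -/
def fixSL (n : ℕ) (σ : F ≃+* F) : Subgroup (Matrix.SpecialLinearGroup (Fin n) F) where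
  carrier := {t | fld σ t = t}
  one_mem' := map_one _
  mul_mem' {a b} ha hb := by
    change fld σ (a * b) = a * b
    rw [map_mul]
    congr 1
  inv_mem' {a} ha := by
    change fld σ a⁻¹ = a⁻¹
    rw [map_inv]
    congr 1

theorem mem_fixSL {σ : F ≃+* F} {t : Matrix.SpecialLinearGroup (Fin n) F} :
    t ∈ fixSL n σ ↔ fld σ t = t := Iff.rfl

/-- `SL_n` over the fixed field -/
theorem fixSL_eq {σ : F ≃+* F} {K : Subfield F} (hK : ∀ a, a ∈ K ↔ σ a = a) :
    fixSL n σ = (Matrix.SpecialLinearGroup.map (n := Fin n) K.subtype).range := by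
  ext t
  rw [mem_fixSL]
  constructor
  · intro h
    have h1 : ∀ i j, t.1 i j ∈ K := by
      intro i j
      rw [hK, ← coe_fld_apply, h]
    let s : Matrix (Fin n) (Fin n) K := fun i j => ⟨t.1 i j, h1 i j⟩
    have hs : s.map K.subtype = t.1 := by
      ext i j
      rfl
    have hd : s.det = 1 := by
      apply K.subtype.injective
      rw [RingHom.map_det, map_one]
      change (s.map K.subtype).det = 1
      rw [hs]
      exact t.2
    exact ⟨⟨s, hd⟩, Subtype.ext hs⟩
  · rintro ⟨s, rfl⟩
    apply Subtype.ext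
    ext i j
    rw [coe_fld_apply]
    exact (hK _).1 (s.1 i j).2

end sub

section box

variable {F : Type} [Field F] {n : ℕ}
variable {G : Type} [Group G] {N : Subgroup G}

/-- the projection `SL_n(F) → N` -/
noncomputable def toN (e : N ≃* Matrix.ProjectiveSpecialLinearGroup (Fin n) F) :
    Matrix.SpecialLinearGroup (Fin n) F →* G :=
  N.subtype.comp (e.symm.toMonoidHom.comp pr)

theorem toN_eq (e : N ≃* Matrix.ProjectiveSpecialLinearGroup (Fin n) F)
    (t : Matrix.SpecialLinearGroup (Fin n) F) : toN e t = ((e.symm (pr t) : N) : G) := rfl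

theorem toN_mem (e : N ≃* Matrix.ProjectiveSpecialLinearGroup (Fin n) F)
    (t : Matrix.SpecialLinearGroup (Fin n) F) : toN e t ∈ N := (e.symm (pr t)).2

theorem toN_eq_iff (e : N ≃* Matrix.ProjectiveSpecialLinearGroup (Fin n) F)
    {s t : Matrix.SpecialLinearGroup (Fin n) F} : toN e s = toN e t ↔ pr s = pr t := by
  rw [toN_eq, toN_eq]
  constructor
  · intro h
    exact e.symm.injective (Subtype.ext h)
  · intro h
    rw [h]

theorem toN_eq_one_iff (e : N ≃* Matrix.ProjectiveSpecialLinearGroup (Fin n) F)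
    {s : Matrix.SpecialLinearGroup (Fin n) F} : toN e s = 1 ↔ pr s = 1 := by
  rw [← map_one (toN e), toN_eq_iff, map_one]

theorem toN_range (e : N ≃* Matrix.ProjectiveSpecialLinearGroup (Fin n) F) : (toN e).range = N := by
  apply le_antisymm
  · rintro _ ⟨s, rfl⟩
    exact toN_mem e s
  · intro m hm
    obtain ⟨s, hs⟩ := pr_surjective (e ⟨m, hm⟩)
    exact ⟨s, by rw [toN_eq, hs, MulEquiv.symm_apply_apply]⟩

/-- conjugation in `G` in terms of automorphisms of `SL_n` -/
theorem conj_toN (hN : N.Normal) (e : N ≃* Matrix.ProjectiveSpecialLinearGroup (Fin n) F) {x : G}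
    {a : MulAut (Matrix.SpecialLinearGroup (Fin n) F)} (hx : cS hN e x = lift a)
    (t : Matrix.SpecialLinearGroup (Fin n) F) : x * toN e t * x⁻¹ = toN e (a t) := by
  rw [toN_eq, toN_eq, ← cS_spec hN, hx, lift_pr]

/-- a transvection over the prime field determines commutation: a matrix whose class commutes with the classes of
all the transvections `1 + E_ij` is scalar -/
theorem scalar_of_comm (hn : 2 ≤ n) (g : GL (Fin n) F)
    (h : ∀ (i j : Fin n) (hij : i ≠ j), pr (cj g (Matrix.SpecialLinearGroup.transvection hij 1)) =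
      (pr (Matrix.SpecialLinearGroup.transvection hij 1) : Matrix.ProjectiveSpecialLinearGroup (Fin n) F)) :
    Psi n F g = 1 := by
  have : Nontrivial (Fin n) := Fin.nontrivial_iff_two_le.2 hn
  have h1 : ∀ (i j : Fin n) (hij : i ≠ j), cj g (Matrix.SpecialLinearGroup.transvection hij 1) =
      Matrix.SpecialLinearGroup.transvection hij 1 := by
    intro i j hij
    have h2 := h i j hij
    rw [transvection_eq_tr, cj_tr] at h2 ⊢
    exact tr_eq_of_pr_eq h2
  -- `g` commutes with all the `E_ij`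
  have h2 : ∀ (i j : Fin n), i ≠ j →
      (g : Matrix (Fin n) (Fin n) F) * Matrix.single i j (1 : F) = Matrix.single i j (1 : F) * (g : Matrix (Fin n) (Fin n) F) := by
    intro i j hij
    have h3 := congrArg Subtype.val (h1 i j hij)
    change (g : Matrix (Fin n) (Fin n) F) * (1 + Matrix.single i j 1) * ((g⁻¹ : GL (Fin n) F) : Matrix _ _ F) =
      1 + Matrix.single i j 1 at h3
    have h4 := congrArg (fun m => m * (g : Matrix (Fin n) (Fin n) F)) h3
    simp only [Matrix.mul_assoc] at h4
    rw [← Units.val_mul, inv_mul_cancel, Units.val_one, Matrix.mul_one, mul_add, add_mul, mul_one, one_mul] at h4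
    exact add_left_cancel h4
  obtain ⟨a, ha⟩ : ∃ a : F, (g : Matrix (Fin n) (Fin n) F) = Matrix.scalar (Fin n) a :=
    (Matrix.mem_range_scalar_of_commute_single (M := (g : Matrix (Fin n) (Fin n) F))
      (fun i j hij => ((h2 i j hij).symm : Commute (Matrix.single i j (1 : F)) (g : Matrix (Fin n) (Fin n) F)))).imp
      fun _ h => h.symm
  rw [Psi_eq_one_iff hn]
  have ha0 : a ≠ 0 := by
    rintro rfl
    rw [map_zero] at ha
    have : Nonempty (Fin n) := ⟨⟨0, by omega⟩⟩
    exact g.ne_zero ha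
  exact ⟨Units.mk0 a ha0, Units.ext ha⟩


/-- an automorphism fixing the fixed field of `σ` is a power of `σ` -/
theorem mem_zpowers_of_fix {F : Type*} [Field F] [Finite F] {σ τ : F ≃+* F} (h : ∀ a, σ a = a → τ a = a) :
    τ ∈ Subgroup.zpowers σ := by
  have hfin : Finite (F ≃+* F) := DFunLike.finite _
  let H := Subgroup.zpowers σ
  have hb := FixedPoints.toAlgHom_bijective H F
  have hfix : ∀ a : FixedPoints.subfield H F, τ a = a := by
    intro a
    apply h
    have := a.2 ⟨σ, Subgroup.mem_zpowers σ⟩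
    exact this
  let τ' : F →ₐ[FixedPoints.subfield H F] F :=
    { (τ : F →+* F) with
      commutes' := fun a => hfix a }
  obtain ⟨g, hg⟩ := hb.2 τ'
  have h1 : τ = g.1 := by
    ext a
    have := DFunLike.congr_fun hg a
    exact this.symm
  rw [h1]
  exact g.2

/-- an element of finite order conjugating `M` into `M` normalises `M` -/
theorem mem_normalizer_of_pow {M : Subgroup G} {x : G} {k : ℕ} (hk : 0 < k) (hx : x ^ k = 1)
    (h : ∀ m ∈ M, x * m * x⁻¹ ∈ M) : x ∈ Subgroup.normalizer (M : Set G) := by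
  have h1 : ∀ (j : ℕ), ∀ m ∈ M, x ^ j * m * (x ^ j)⁻¹ ∈ M := by
    intro j
    induction j with
    | zero => intro m hm; simpa using hm
    | succ j ih =>
      intro m hm
      have h2 := h _ (ih m hm)
      have h3 : x * (x ^ j * m * (x ^ j)⁻¹) * x⁻¹ = x ^ (j + 1) * m * (x ^ (j + 1))⁻¹ := by
        rw [pow_succ']
        group
      rwa [h3] at h2
  rw [Subgroup.mem_normalizer_iff]
  intro m
  refine ⟨fun hm => h m hm, fun hm => ?_⟩
  have h2 := h1 (k - 1) _ hm
  have h3 : x ^ (k - 1) = x⁻¹ := by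
    rw [eq_inv_iff_mul_eq_one, ← pow_succ, Nat.sub_add_cancel hk]
    exact hx
  rw [h3] at h2
  have h4 : x⁻¹ * (x * m * x⁻¹) * x⁻¹⁻¹ = m := by group
  rwa [h4] at h2

theorem fld_cj (σ : F ≃+* F) (g : GL (Fin n) F) (t : Matrix.SpecialLinearGroup (Fin n) F) :
    fld σ (cj g t) = cj (mapGL σ g) (fld σ t) := by
  apply Subtype.ext
  change ((g : Matrix (Fin n) (Fin n) F) * t.1 * ((g⁻¹ : GL (Fin n) F) : Matrix (Fin n) (Fin n) F)).map σ =
    (mapGL σ g : Matrix (Fin n) (Fin n) F) * t.1.map σ * (((mapGL σ g)⁻¹ : GL (Fin n) F) : Matrix (Fin n) (Fin n) F)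
  rw [← map_inv, coe_mapGL, coe_mapGL]
  change ((g : Matrix (Fin n) (Fin n) F) * t.1 * ((g⁻¹ : GL (Fin n) F) : Matrix (Fin n) (Fin n) F)).map
    (σ : F →+* F) = (g : Matrix (Fin n) (Fin n) F).map (σ : F →+* F) * t.1.map (σ : F →+* F) *
      ((g⁻¹ : GL (Fin n) F) : Matrix (Fin n) (Fin n) F).map (σ : F →+* F)
  rw [Matrix.map_mul, Matrix.map_mul]

/-- transvections `1 + c E_ij` -/
theorem fix_of_comm {i j : Fin n} (hij : i ≠ j) {c d : F}
    (h : (pr (Matrix.SpecialLinearGroup.transvection hij c) : Matrix.ProjectiveSpecialLinearGroup (Fin n) F) =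
      pr (Matrix.SpecialLinearGroup.transvection hij d)) : c = d := by
  rw [transvection_eq_tr, transvection_eq_tr] at h
  have h1 := tr_eq_iff.1 (tr_eq_of_pr_eq h)
  have h2 := congrFun (congrFun h1 i) j
  simpa [Matrix.vecMulVec_apply] using h2

/-- normal form of the automorphisms commuting with `phi σ` -/
theorem exists_form' [Finite F] (hn : 2 ≤ n) {σ : F ≃+* F} {g : GL (Fin n) F} {τ : F ≃+* F}
    (h : (Psi n F g * phi n F τ) * phi n F σ = phi n F σ * (Psi n F g * phi n F τ)) :
    ∃ g' : GL (Fin n) F, Psi n F g' = Psi n F g ∧ mapGL σ g' = g' := by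
  have : Fintype F := Fintype.ofFinite F
  obtain ⟨K, hK, -⟩ := card_fix σ
  have hστ : phi n F σ * phi n F τ = phi n F τ * phi n F σ := by
    rw [← map_mul, ← map_mul, Lib.AutSL2Out.ringEquiv_comm]
  have h1 : Psi n F g ∈ Subgroup.centralizer {phi n F σ} := by
    rw [Subgroup.mem_centralizer_singleton_iff]
    rw [mul_assoc, ← hστ, ← mul_assoc, ← mul_assoc] at h
    exact mul_right_cancel h
  have hK' : ∀ a, σ a = a ↔ ∃ b, K.subtype b = a := by
    intro a
    rw [← hK]
    constructor
    · intro ha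
      exact ⟨⟨a, ha⟩, rfl⟩
    · rintro ⟨b, rfl⟩
      exact b.2
  obtain ⟨u, k, rfl⟩ := (comm_phi_iff hn hK' g).1 h1
  refine ⟨Matrix.GeneralLinearGroup.map K.subtype k, ?_, ?_⟩
  · rw [map_mul, Psi_scal, one_mul]
  · apply Units.ext
    rw [coe_mapGL]
    ext a b
    exact (hK _).1 (k.1 a b).2

/-- the M-rule situation of a standard field automorphism: `M` = image of `SL_n(F_0)` -/
theorem mrule_field_gen {Ω ι : Type} [Finite F] [Nonempty Ω] [MulAction G Ω] [Finite ι] (hn : 3 ≤ n)
    (hE : Env G Ω N) (e : N ≃* Matrix.ProjectiveSpecialLinearGroup (Fin n) F) {x : ι → G} {r : ι → ℕ}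
    (hx : PF x r) (hcov : Cov Ω x)
    (hlin : ∀ i, ∃ (g : GL (Fin n) F) (σ : F ≃+* F), cS hE.norm e (x i) = Psi n F g * phi n F σ)
    {i₀ : ι} {σ : F ≃+* F} (hσ : cS hE.norm e (x i₀) = phi n F σ)
    (hRC : (∀ K : Subfield F, (∀ a, a ∈ K ↔ σ a = a) → RC (Matrix.ProjectiveSpecialLinearGroup (Fin n) K)) ∨
      ∃ i₁, ∀ i, i ≠ i₁ → i = i₀) (ω : Ω) :
    (∀ t ∈ fixSL n σ, toN e t • ω = ω) ∨ x i₀ • ω = ω := by
  have : Fintype F := Fintype.ofFinite F
  have hN := hE.norm
  have hn2 : 2 ≤ n := by omega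
  obtain ⟨K, hK, -⟩ := card_fix σ
  -- the subgroup `M`
  let μ : Matrix.SpecialLinearGroup (Fin n) K →* G := (toN e).comp (Matrix.SpecialLinearGroup.map K.subtype)
  have hμr : μ.range = (fixSL n σ).map (toN e) := by
    rw [fixSL_eq hK, ← MonoidHom.range_comp]
  have hker : μ.ker = Subgroup.center (Matrix.SpecialLinearGroup (Fin n) K) := by
    ext s
    rw [MonoidHom.mem_ker]
    change toN e (Matrix.SpecialLinearGroup.map K.subtype s) = 1 ↔ _
    rw [toN_eq_one_iff, pr_eq_one_iff, Matrix.SpecialLinearGroup.mem_center_iff,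
      Matrix.SpecialLinearGroup.mem_center_iff]
    have hcoe : ∀ r : K, (Matrix.scalar (Fin n) (r : F)) = (Matrix.scalar (Fin n) r).map K.subtype := by
      intro r
      ext a b
      rw [Matrix.map_apply, Matrix.scalar_apply, Matrix.scalar_apply, Matrix.diagonal_apply, Matrix.diagonal_apply]
      split_ifs <;> simp
    constructor
    · rintro ⟨r, hr, h⟩
      have h0 : Nonempty (Fin n) := ⟨⟨0, by omega⟩⟩
      obtain ⟨a⟩ := h0
      have h1 : r = ((s.1 a a : K) : F) := by
        have := congrFun (congrFun h a) a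
        rw [Matrix.scalar_apply, Matrix.diagonal_apply_eq] at this
        exact this
      refine ⟨s.1 a a, ?_, ?_⟩
      · apply Subtype.ext
        rw [SubmonoidClass.coe_pow, ← h1]
        exact hr
      · have h2 : (Matrix.scalar (Fin n) (s.1 a a)).map K.subtype = s.1.map K.subtype := by
          rw [← hcoe, ← h1]
          exact h
        ext b c
        have := congrFun (congrFun h2 b) c
        exact this
    · rintro ⟨r, hr, h⟩
      refine ⟨r, ?_, ?_⟩
      · rw [← SubmonoidClass.coe_pow, hr]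
        rfl
      · rw [hcoe, h]
        rfl
  let M : Subgroup G := μ.range
  let π : M ≃* Matrix.ProjectiveSpecialLinearGroup (Fin n) K :=
    (QuotientGroup.quotientKerEquivRange μ).symm.trans (QuotientGroup.quotientMulEquivOfEq hker)
  have hperf0 : commutator (Matrix.SpecialLinearGroup (Fin n) K) = ⊤ :=
    LieClassical.SLGen.commutator_eq_top (by rw [Fintype.card_fin]; exact hn)
  have hperf : ⁅M, M⁆ = M := by
    change ⁅μ.range, μ.range⁆ = μ.range
    rw [MonoidHom.range_eq_map, ← Subgroup.map_commutator]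
    congr 1
  have hS : IsSimpleGroup (Matrix.ProjectiveSpecialLinearGroup (Fin n) K) :=
    LieClassical.SLGen.psl_isSimpleGroup (by rw [Fintype.card_fin]; exact hn)
  have hSn : ¬ IsMulCommutative (Matrix.ProjectiveSpecialLinearGroup (Fin n) K) := by
    intro hcomm
    have hc : ∀ a b : Matrix.ProjectiveSpecialLinearGroup (Fin n) K, a * b = b * a := fun a b => hcomm.is_comm.comm a b
    have h1 : Group.IsPerfect (Matrix.SpecialLinearGroup (Fin n) K) := ⟨hperf0⟩
    have h2 : Group.IsPerfect (Matrix.ProjectiveSpecialLinearGroup (Fin n) K) := inferInstance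
    have h3 := h2.commutator_eq_top
    rw [commutator_def, Subgroup.commutator_eq_bot_iff_le_centralizer.2] at h3
    · obtain ⟨a, b, hab⟩ := hS.exists_pair_ne
      apply hab
      have h4 : ∀ c : Matrix.ProjectiveSpecialLinearGroup (Fin n) K, c = 1 := by
        intro c
        have : c ∈ (⊤ : Subgroup (Matrix.ProjectiveSpecialLinearGroup (Fin n) K)) := trivial
        rw [← h3] at this
        exact Subgroup.mem_bot.1 this
      rw [h4 a, h4 b]
    · intro a _ b _
      exact hc b a
  -- normal form of the `x i`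
  have hform : ∀ i, ∃ (g : GL (Fin n) F) (τ : F ≃+* F), cS hN e (x i) = lift (cj g * fld τ) ∧ mapGL σ g = g := by
    intro i
    obtain ⟨g, τ, hg⟩ := hlin i
    obtain ⟨g', h1, h2⟩ := exists_form' hn2 (σ := σ) (g := g) (τ := τ) (by
      rw [← hg, ← hσ, ← map_mul, ← map_mul, hx.comm])
    refine ⟨g', τ, ?_, h2⟩
    rw [hg, ← h1, map_mul]
    rfl
  have hconj : ∀ i, ∃ (g : GL (Fin n) F) (τ : F ≃+* F), mapGL σ g = g ∧ cS hN e (x i) = lift (cj g * fld τ) ∧
      ∀ t, x i * toN e t * (x i)⁻¹ = toN e (cj g (fld τ t)) := by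
    intro i
    obtain ⟨g, τ, h1, h2⟩ := hform i
    exact ⟨g, τ, h2, h1, fun t => conj_toN hN e h1 t⟩
  have hfld : ∀ (τ : F ≃+* F) (t : Matrix.SpecialLinearGroup (Fin n) F), fld σ (fld τ t) = fld τ (fld σ t) := by
    intro τ t
    rw [← MulAut.mul_apply, ← MulAut.mul_apply, ← map_mul, ← map_mul, Lib.AutSL2Out.ringEquiv_comm]
  have hnorm : ∀ i, x i ∈ Subgroup.normalizer (M : Set G) := by
    intro i
    refine mem_normalizer_of_pow (hx.prime i).pos (hx.pow i) ?_
    obtain ⟨g, τ, hg, -, hc⟩ := hconj i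
    intro m hm
    change m ∈ μ.range at hm
    change _ ∈ μ.range
    rw [hμr] at hm ⊢
    obtain ⟨t, ht, rfl⟩ := hm
    rw [hc]
    refine ⟨_, ?_, rfl⟩
    change fld σ (cj g (fld τ t)) = cj g (fld τ t)
    rw [fld_cj, hg, hfld]
    congr 2
  have hcen : ∀ i, (∀ m ∈ M, x i * m = m * x i) → i = i₀ := by
    intro i hi
    obtain ⟨g, τ, hg, hcs, hc⟩ := hconj i
    have h1 : ∀ t ∈ fixSL n σ, pr (cj g (fld τ t)) = pr t := by
      intro t ht
      rw [← toN_eq_iff e, ← hc, hi _ (show toN e t ∈ μ.range by rw [hμr]; exact ⟨t, ht, rfl⟩), mul_inv_cancel_right]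
    have h2 : Psi n F g = 1 := by
      apply scalar_of_comm hn2
      intro a b hab
      have h3 := h1 (Matrix.SpecialLinearGroup.transvection hab 1) (by
        rw [mem_fixSL, fld_transvection, map_one])
      rw [fld_transvection, map_one] at h3
      exact h3
    have h3 : cS hN e (x i) = phi n F τ := by
      rw [hcs, map_mul]
      change Psi n F g * phi n F τ = _
      rw [h2, one_mul]
    have h4 : τ ∈ Subgroup.zpowers σ := by
      apply mem_zpowers_of_fix
      intro a ha
      have hab : (⟨0, by omega⟩ : Fin n) ≠ ⟨1, by omega⟩ := by simp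
      have h5 : pr (Matrix.SpecialLinearGroup.transvection hab a) =
          (pr (fld τ (Matrix.SpecialLinearGroup.transvection hab a)) :
            Matrix.ProjectiveSpecialLinearGroup (Fin n) F) := by
        have h6 := h1 (Matrix.SpecialLinearGroup.transvection hab a) (by
          rw [mem_fixSL, fld_transvection, ha])
        have h7 : pr (cj g (fld τ (Matrix.SpecialLinearGroup.transvection hab a))) =
            Psi n F g (pr (fld τ (Matrix.SpecialLinearGroup.transvection hab a))) := rfl
        rw [h7, h2, MulAut.one_apply] at h6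
        exact h6.symm
      rw [fld_transvection] at h5
      exact (fix_of_comm hab h5).symm
    obtain ⟨k, rfl⟩ := Subgroup.mem_zpowers_iff.1 h4
    have h5 : x i = x i₀ ^ k := by
      apply cS_inj hN e hE.cent
      rw [h3, map_zpow, map_zpow, hσ]
    by_contra hne
    have h6 : x i ^ r i₀ = 1 := by
      rw [h5, ← zpow_natCast, ← zpow_mul, mul_comm, zpow_mul, zpow_natCast, hx.pow, one_zpow]
    have h7 : Nat.Coprime (r i) (r i₀) :=
      (Nat.coprime_primes (hx.prime _) (hx.prime _)).2 fun h => hne (hx.inj h)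
    have h8 := Nat.dvd_gcd (orderOf_dvd_of_pow_eq_one (hx.pow i)) (orderOf_dvd_of_pow_eq_one h6)
    rw [h7.gcd_eq_one, Nat.dvd_one, orderOf_eq_one_iff] at h8
    exact hx.ne i h8
  have hker' : π.toMonoidHom.ker ≤ Subgroup.center M := by
    rw [(MonoidHom.ker_eq_bot_iff _).2 π.injective]
    exact bot_le
  have hcov' : ∀ m ∈ M, ∃ i, x i • m • ω = m • ω := fun m _ => by
    obtain ⟨i, hi⟩ := hcov (m • ω)
    exact ⟨i, hi⟩
  have hfin : M ≤ stabilizer G ω ∨ ∃ j, (∀ m ∈ M, x j * m = m * x j) ∧ x j • ω = ω := by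
    rcases hRC with hRC | ⟨i₁, hi₁⟩
    · exact mrule_RC hS hSn x r hx.prime hx.inj hx.pow hx.comm M hperf π.toMonoidHom π.surjective hker' hnorm
        (hRC K hK) ω hcov'
    · refine mrule_one hS hSn x r hx.prime hx.inj hx.pow hx.comm M hperf π.toMonoidHom π.surjective hker' i₁
        (hnorm i₁) (fun i hi m hm => ?_) ω hcov'
      rw [hi₁ i hi]
      change m ∈ μ.range at hm
      rw [hμr] at hm
      obtain ⟨t, ht, rfl⟩ := hm
      have h1 := conj_toN hN e (a := fld σ) hσ t
      rw [mem_fixSL.1 ht] at h1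
      rw [← eq_mul_inv_iff_mul_eq.1 h1.symm]
  rcases hfin with h | ⟨j, hj, hjω⟩
  · left
    intro t ht
    exact h (show toN e t ∈ μ.range by rw [hμr]; exact ⟨t, ht, rfl⟩)
  · right
    rw [hcen j hj] at hjω
    exact hjω

/-- the M-rule situation of a standard field automorphism: `M` = image of `SL_n(F_0)` -/
theorem mrule_field {Ω ι : Type} [Finite F] [Nonempty Ω] [MulAction G Ω] [Finite ι] (hn : 3 ≤ n)
    (hE : Env G Ω N) (e : N ≃* Matrix.ProjectiveSpecialLinearGroup (Fin n) F) {x : ι → G} {r : ι → ℕ}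
    (hx : PF x r) (hcov : Cov Ω x)
    (hlin : ∀ i, ∃ (g : GL (Fin n) F) (σ : F ≃+* F), cS hE.norm e (x i) = Psi n F g * phi n F σ)
    {i₀ : ι} {σ : F ≃+* F} (hσ : cS hE.norm e (x i₀) = phi n F σ)
    (hRC : ∀ K : Subfield F, (∀ a, a ∈ K ↔ σ a = a) → RC (Matrix.ProjectiveSpecialLinearGroup (Fin n) K)) (ω : Ω) :
    (∀ t ∈ fixSL n σ, toN e t • ω = ω) ∨ x i₀ • ω = ω :=
  mrule_field_gen hn hE e hx hcov hlin hσ (Or.inl hRC) ω

/-- commutation relation of root elements -/
theorem trans_comm {a b c : Fin n} (hab : a ≠ b) (hbc : b ≠ c) (hac : a ≠ c) (s t : F) :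
    Matrix.SpecialLinearGroup.transvection hbc t * Matrix.SpecialLinearGroup.transvection hab s =
      Matrix.SpecialLinearGroup.transvection hac (-(s * t)) * Matrix.SpecialLinearGroup.transvection hab s *
        Matrix.SpecialLinearGroup.transvection hbc t := by
  apply Subtype.ext
  change (1 + Matrix.single b c t) * (1 + Matrix.single a b s) =
    (1 + Matrix.single a c (-(s * t))) * (1 + Matrix.single a b s) * (1 + Matrix.single b c t)
  have h1 : Matrix.single b c t * Matrix.single a b s = 0 :=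
    Matrix.single_mul_single_of_ne _ _ _ _ hac.symm _
  have h2 : Matrix.single a b s * Matrix.single b c t = Matrix.single a c (s * t) := by
    rw [Matrix.single_mul_single_same]
  have h3 : Matrix.single a c (-(s * t)) * Matrix.single a b s = 0 :=
    Matrix.single_mul_single_of_ne _ _ _ _ hac.symm _
  have h4 : Matrix.single a c (-(s * t)) * Matrix.single b c t = 0 :=
    Matrix.single_mul_single_of_ne _ _ _ _ hbc.symm _
  have h5 : Matrix.single a c (-(s * t)) = -Matrix.single a c (s * t) := by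
    ext i j
    simp only [Matrix.single_apply, Matrix.neg_apply]
    split_ifs <;> simp
  simp only [add_mul, mul_add, one_mul, mul_one, h1, h2, h3, h4, zero_mul]
  rw [h5]
  abel

theorem trans_inv_mul {a b : Fin n} (hab : a ≠ b) (s t : F) :
    Matrix.SpecialLinearGroup.transvection hab s * (Matrix.SpecialLinearGroup.transvection hab t)⁻¹ =
      Matrix.SpecialLinearGroup.transvection hab (s - t) := by
  rw [mul_inv_eq_iff_eq_mul]
  apply Subtype.ext
  change 1 + Matrix.single a b s = (1 + Matrix.single a b (s - t)) * (1 + Matrix.single a b t)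
  have h1 : Matrix.single a b (s - t) * Matrix.single a b t = 0 :=
    Matrix.single_mul_single_of_ne _ _ _ _ hab.symm _
  have h2 : Matrix.single a b s = Matrix.single a b (s - t) + Matrix.single a b t := by
    rw [← Matrix.single_add, sub_add_cancel]
  rw [mul_add, add_mul, add_mul, h1, h2]
  simp only [one_mul, mul_one, add_zero]
  abel

/-- root elements with index pairs `ab`, `ac` commute -/
theorem trans_comm_left {a b c : Fin n} (hab : a ≠ b) (hac : a ≠ c) (s t : F) :
    Matrix.SpecialLinearGroup.transvection hab s * Matrix.SpecialLinearGroup.transvection hac t =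
      Matrix.SpecialLinearGroup.transvection hac t * Matrix.SpecialLinearGroup.transvection hab s := by
  apply Subtype.ext
  change (1 + Matrix.single a b s) * (1 + Matrix.single a c t) = (1 + Matrix.single a c t) * (1 + Matrix.single a b s)
  have h1 : Matrix.single a b s * Matrix.single a c t = 0 := Matrix.single_mul_single_of_ne _ _ _ _ hab.symm _
  have h2 : Matrix.single a c t * Matrix.single a b s = 0 := Matrix.single_mul_single_of_ne _ _ _ _ hac.symm _
  simp only [add_mul, mul_add, one_mul, mul_one, h1, h2]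
  abel

theorem trans_comm_right {a b c : Fin n} (hac : a ≠ c) (hbc : b ≠ c) (s t : F) :
    Matrix.SpecialLinearGroup.transvection hbc s * Matrix.SpecialLinearGroup.transvection hac t =
      Matrix.SpecialLinearGroup.transvection hac t * Matrix.SpecialLinearGroup.transvection hbc s := by
  apply Subtype.ext
  change (1 + Matrix.single b c s) * (1 + Matrix.single a c t) = (1 + Matrix.single a c t) * (1 + Matrix.single b c s)
  have h1 : Matrix.single b c s * Matrix.single a c t = 0 := Matrix.single_mul_single_of_ne _ _ _ _ hac.symm _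
  have h2 : Matrix.single a c t * Matrix.single b c s = 0 := Matrix.single_mul_single_of_ne _ _ _ _ hbc.symm _
  simp only [add_mul, mul_add, one_mul, mul_one, h1, h2]
  abel

/-- the final step: a cover by a transvection over the fixed field and a standard field automorphism is impossible -/
theorem field_end {Ω : Type} [Nonempty Ω] [MulAction G Ω] (hn : 3 ≤ n) (hE : Env G Ω N)
    (e : N ≃* Matrix.ProjectiveSpecialLinearGroup (Fin n) F) {x : G} {σ : F ≃+* F} (hσ1 : σ ≠ 1)
    (hσ : cS hE.norm e x = phi n F σ)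
    (hcov : ∀ ω : Ω, (∀ t ∈ fixSL n σ, toN e t • ω = ω) ∨ x • ω = ω) : False := by
  have hN := hE.norm
  let a : Fin n := ⟨0, by omega⟩
  let b : Fin n := ⟨1, by omega⟩
  let c : Fin n := ⟨2, by omega⟩
  have hab : a ≠ b := by simp [a, b]
  have hbc : b ≠ c := by simp [b, c]
  have hac : a ≠ c := by simp [a, c]
  let y : G := toN e (Matrix.SpecialLinearGroup.transvection hac 1)
  have hy : (Matrix.SpecialLinearGroup.transvection hac 1 : Matrix.SpecialLinearGroup (Fin n) F) ∈ fixSL n σ := by
    rw [mem_fixSL, fld_transvection, map_one]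
  have hy1 : y ≠ 1 := by
    intro h
    have h1 := (toN_eq_one_iff e).1 h
    have h2 : (pr (Matrix.SpecialLinearGroup.transvection hac 1) : Matrix.ProjectiveSpecialLinearGroup (Fin n) F) =
        pr (Matrix.SpecialLinearGroup.transvection hac 0) := by
      rw [h1]
      symm
      have h3 : (Matrix.SpecialLinearGroup.transvection hac 0 : Matrix.SpecialLinearGroup (Fin n) F) = 1 := by
        apply Subtype.ext
        change 1 + Matrix.single a c (0 : F) = 1
        rw [Matrix.single_zero, add_zero]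
      rw [h3, map_one]
    exact one_ne_zero (fix_of_comm hac h2)
  let U : Subgroup G := Subgroup.centralizer {y}
  have hUmem : ∀ t : Matrix.SpecialLinearGroup (Fin n) F,
      t * Matrix.SpecialLinearGroup.transvection hac 1 = Matrix.SpecialLinearGroup.transvection hac 1 * t →
      toN e t ∈ U := by
    intro t ht
    rw [Subgroup.mem_centralizer_singleton_iff]
    change toN e t * toN e _ = toN e _ * toN e t
    rw [← map_mul, ← map_mul, ht]
  obtain ⟨d, hd⟩ : ∃ d, σ d ≠ d := by
    by_contra hno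
    push Not at hno
    exact hσ1 (RingEquiv.ext hno)
  have hfd : fld σ (Matrix.SpecialLinearGroup.transvection hab d) =
      Matrix.SpecialLinearGroup.transvection hab (σ d) := fld_transvection σ hab d
  have hz : toN e (Matrix.SpecialLinearGroup.transvection hab (d - σ d)) ∈ cmm U x := by
    have h1 : toN e (Matrix.SpecialLinearGroup.transvection hab d) ∈ U := hUmem _ (trans_comm_left hab hac d 1)
    have h2 := mem_cmm (x := x) h1
    have h3 : toN e (Matrix.SpecialLinearGroup.transvection hab d) * x *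
        (toN e (Matrix.SpecialLinearGroup.transvection hab d))⁻¹ * x⁻¹ =
        toN e (Matrix.SpecialLinearGroup.transvection hab d) *
          (x * toN e (Matrix.SpecialLinearGroup.transvection hab d) * x⁻¹)⁻¹ := by group
    rw [h3, conj_toN hN e (a := fld σ) hσ, hfd, ← map_inv, ← map_mul, trans_inv_mul] at h2
    exact h2
  have hdd : d - σ d ≠ 0 := sub_ne_zero.2 (Ne.symm hd)
  have hyU : y ∈ cmm U x := by
    have h1 : toN e (Matrix.SpecialLinearGroup.transvection hbc (-(d - σ d)⁻¹)) ∈ U :=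
      hUmem _ (trans_comm_right hac hbc _ 1)
    have h2 := cmm_comm h1 hz
    have h3 : Matrix.SpecialLinearGroup.transvection hbc (-(d - σ d)⁻¹) *
        Matrix.SpecialLinearGroup.transvection hab (d - σ d) *
        (Matrix.SpecialLinearGroup.transvection hbc (-(d - σ d)⁻¹))⁻¹ *
        (Matrix.SpecialLinearGroup.transvection hab (d - σ d))⁻¹ = Matrix.SpecialLinearGroup.transvection hac 1 := by
      rw [trans_comm hab hbc hac]
      have h4 : -((d - σ d) * -(d - σ d)⁻¹) = 1 := by
        rw [mul_neg, neg_neg, mul_inv_cancel₀ hdd]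
      rw [h4]
      group
    rw [← map_inv, ← map_inv, ← map_mul, ← map_mul, ← map_mul, h3] at h2
    exact h2
  refine hE.not_all hy1 fun ω => lr_one (x := x) (y := y) (U := U) (fun ω => ?_) (fun u hu => ?_) hyU ω
  · rcases hcov ω with h | h
    · exact Or.inl (h _ hy)
    · exact Or.inr h
  · exact Subgroup.mem_centralizer_singleton_iff.1 hu

/-- change of the identification `N ≃ PSL_n(F)` such that the field automorphism becomes the standard one -/
theorem exists_std {x : G} [Finite F] (hn : 2 ≤ n) (hN : N.Normal)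
    (e : N ≃* Matrix.ProjectiveSpecialLinearGroup (Fin n) F) {g : GL (Fin n) F} {σ : F ≃+* F} (hσ1 : σ ≠ 1)
    (hσ : cS hN e x = Psi n F g * phi n F σ) {r : ℕ} (hr : r.Prime) (hx : x ^ r = 1) :
    ∃ e' : N ≃* Matrix.ProjectiveSpecialLinearGroup (Fin n) F, cS hN e' x = phi n F σ ∧
      ∀ (z : G) (τ : F ≃+* F), (∃ g : GL (Fin n) F, cS hN e z = Psi n F g * phi n F τ) →
        ∃ g : GL (Fin n) F, cS hN e' z = Psi n F g * phi n F τ := by
  have hpow : (Psi n F g * lift (fld σ)) ^ r = 1 := by
    change (Psi n F g * phi n F σ) ^ r = 1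
    rw [← hσ, ← map_pow, hx, map_one]
  obtain ⟨α, hα, hα2⟩ := S2697.std hn (σ := σ) hσ1 hr (Psi_mem g) hpow
  obtain ⟨A, rfl⟩ := mem_inndiag.1 hα
  let e' : N ≃* Matrix.ProjectiveSpecialLinearGroup (Fin n) F := e.trans (Psi n F A)⁻¹
  have hc : ∀ z : G, cS hN e' z = (Psi n F A)⁻¹ * cS hN e z * Psi n F A := by
    intro z
    have := cS_trans hN e (Psi n F A)⁻¹ z
    rw [inv_inv] at this
    exact this
  refine ⟨e', ?_, ?_⟩
  · rw [hc, hσ]
    change (Psi n F A)⁻¹ * (Psi n F g * lift (fld σ)) * Psi n F A = lift (fld σ)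
    rw [hα2]
    group
  · rintro z τ ⟨g, h⟩
    refine ⟨A⁻¹ * g * mapGL τ A, ?_⟩
    rw [hc, h, map_mul, map_mul, map_inv, mul_assoc, mul_assoc, mul_assoc, mul_assoc, phi_mul_Psi]

/-- **Box A5.** No cover with a member of field type, `n ≥ 3`, as soon as `PSL_n` over the fixed field has property `RC`
or there is only one further member. -/
theorem field_dead_gen {Ω ι : Type} [Finite F] [Nonempty Ω] [MulAction G Ω] [Finite ι] (hn : 3 ≤ n)
    (hE : Env G Ω N) (e : N ≃* Matrix.ProjectiveSpecialLinearGroup (Fin n) F) {x : ι → G} {r : ι → ℕ}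
    (hx : PF x r) (hcov : Cov Ω x)
    (hlin : ∀ i, ∃ (g : GL (Fin n) F) (σ : F ≃+* F), cS hE.norm e (x i) = Psi n F g * phi n F σ)
    {i₀ : ι} {g : GL (Fin n) F} {σ : F ≃+* F} (hσ1 : σ ≠ 1) (hσ : cS hE.norm e (x i₀) = Psi n F g * phi n F σ)
    (hRC : (∀ K : Subfield F, (∀ a, a ∈ K ↔ σ a = a) → RC (Matrix.ProjectiveSpecialLinearGroup (Fin n) K)) ∨
      ∃ i₁, ∀ i, i ≠ i₁ → i = i₀) :
    False := by
  have hn2 : 2 ≤ n := by omega
  obtain ⟨e', hσ', hl⟩ := exists_std hn2 hE.norm e hσ1 hσ (hx.prime i₀) (hx.pow i₀)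
  have hlin' : ∀ i, ∃ (g : GL (Fin n) F) (σ : F ≃+* F), cS hE.norm e' (x i) = Psi n F g * phi n F σ := by
    intro i
    obtain ⟨g, τ, h⟩ := hlin i
    obtain ⟨g', h'⟩ := hl _ _ ⟨g, h⟩
    exact ⟨g', τ, h'⟩
  refine field_end hn hE e' hσ1 hσ' fun ω => ?_
  exact mrule_field_gen hn hE e' hx hcov hlin' hσ' hRC ω

/-- **Box A5.** No cover with a member of field type, `n ≥ 3`, as soon as `PSL_n` over the fixed field has property `RC`. -/
theorem field_dead {Ω ι : Type} [Finite F] [Nonempty Ω] [MulAction G Ω] [Finite ι] (hn : 3 ≤ n)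
    (hE : Env G Ω N) (e : N ≃* Matrix.ProjectiveSpecialLinearGroup (Fin n) F) {x : ι → G} {r : ι → ℕ}
    (hx : PF x r) (hcov : Cov Ω x)
    (hlin : ∀ i, ∃ (g : GL (Fin n) F) (σ : F ≃+* F), cS hE.norm e (x i) = Psi n F g * phi n F σ)
    {i₀ : ι} {g : GL (Fin n) F} {σ : F ≃+* F} (hσ1 : σ ≠ 1) (hσ : cS hE.norm e (x i₀) = Psi n F g * phi n F σ)
    (hRC : ∀ K : Subfield F, (∀ a, a ∈ K ↔ σ a = a) → RC (Matrix.ProjectiveSpecialLinearGroup (Fin n) K)) :
    False :=
  field_dead_gen hn hE e hx hcov hlin hσ1 hσ (Or.inl hRC)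

end box

end Cfsg.Agent.H930.RC
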