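import Mathlib

/-!
# Commuting elements of prime orders of `GL_4(2)` (helper930)

`V` an elementary abelian group of order 16, `f g : V →+ V` commuting, nontrivial, of prime orders `p ≠ q` dividing 210:
then `{p, q}` is `{2, 3}` or `{3, 5}`.
-/

set_option autoImplicit false

namespace Cfsg.Agent.H930.RC

section fix

variable {V : Type*} [AddCommGroup V]

/-- fixed vectors of `f` -/
def fx (f : V →+ V) : AddSubgroup V where
  carrier := {v | f v = v}
  zero_mem' := map_zero f
  add_mem' {a b} ha hb := by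
    change f (a + b) = a + b
    rw [map_add]
    congr 1
  neg_mem' {a} ha := by
    change f (-a) = -a
    rw [map_neg]
    congr 1

theorem mem_fx {f : V →+ V} {v : V} : v ∈ fx f ↔ f v = v := Iff.rfl

theorem fx_eq_top {f : V →+ V} : fx f = ⊤ ↔ ∀ v, f v = v := by
  rw [AddSubgroup.eq_top_iff']
  exact Iff.rfl

theorem card_cong [Finite V] {p : ℕ} (hp : p.Prime) {f : V →+ V} (hf : ∀ v, (f^[p]) v = v) (X : AddSubgroup V)
    (hX : ∀ v ∈ X, f v ∈ X) : Nat.card X ≡ Nat.card (X ⊓ fx f : AddSubgroup V) [MOD p] := by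
  classical
  have : Fact p.Prime := ⟨hp⟩
  have : Fintype X := Fintype.ofFinite X
  let φ : Function.End X := fun v => ⟨f v, hX v v.2⟩
  have hφ : ∀ (n : ℕ) (v : X), (((φ ^ n) v : X) : V) = (f^[n]) v := by
    intro n
    induction n with
    | zero => intro v; rfl
    | succ n ih =>
      intro v
      rw [pow_succ, Function.iterate_succ_apply]
      exact ih (φ v)
  have h1 : φ ^ p ^ 1 = 1 := by
    funext v
    apply Subtype.ext
    rw [pow_one, hφ, hf]
    rfl
  have h2 := Equiv.Perm.card_fixedPoints_modEq h1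
  rw [← Nat.card_eq_fintype_card, ← Nat.card_eq_fintype_card] at h2
  have h3 : Nat.card φ.fixedPoints = Nat.card (X ⊓ fx f : AddSubgroup V) := by
    refine Nat.card_congr
      { toFun := fun v => ⟨v.1.1, v.1.2, ?_⟩
        invFun := fun v => ⟨⟨v.1, v.2.1⟩, ?_⟩
        left_inv := fun v => rfl
        right_inv := fun v => rfl }
    · have := v.2
      exact congrArg Subtype.val this
    · exact Subtype.ext v.2.2
  rwa [h3] at h2

theorem card_mem (h16 : Nat.card V = 16) (X : AddSubgroup V) :
    Nat.card X = 1 ∨ Nat.card X = 2 ∨ Nat.card X = 4 ∨ Nat.card X = 8 ∨ Nat.card X = 16 := by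
  have h1 : Nat.card X ∣ 16 := h16 ▸ X.card_addSubgroup_dvd_card
  have h2 : Nat.card X ≤ 16 := Nat.le_of_dvd (by norm_num) h1
  interval_cases h : Nat.card X <;> omega

theorem top_of_card (h16 : Nat.card V = 16) {X : AddSubgroup V} (h : Nat.card X = 16) : X = ⊤ := by
  have : Finite V := Nat.finite_of_card_ne_zero (by rw [h16]; norm_num)
  exact AddSubgroup.eq_top_of_card_eq X (by rw [h, h16])

variable {f g : V →+ V}

theorem fx_stable (hc : ∀ v, f (g v) = g (f v)) : ∀ v ∈ fx g, f v ∈ fx g := by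
  intro v hv
  rw [mem_fx] at hv ⊢
  rw [← hc, hv]

/-- an element of order 5 has no fixed vectors in an invariant subgroup and nothing between -/
theorem five_inv (h16 : Nat.card V = 16) (hf : ∀ v, (f^[5]) v = v) (hf1 : ∃ v, f v ≠ v) (X : AddSubgroup V)
    (hX : ∀ v ∈ X, f v ∈ X) : X = ⊥ ∨ X = ⊤ := by
  have : Finite V := Nat.finite_of_card_ne_zero (by rw [h16]; norm_num)
  have h0 : ∀ Y : AddSubgroup V, (∀ v ∈ Y, f v ∈ Y) → Nat.card Y ≡ Nat.card (Y ⊓ fx f : AddSubgroup V) [MOD 5] :=
    fun Y hY => card_cong Nat.prime_five hf Y hY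
  have h1 : Nat.card (fx f) = 1 := by
    have h2 := h0 ⊤ (fun _ _ => trivial)
    rw [top_inf_eq, AddSubgroup.card_top, h16] at h2
    rcases card_mem h16 (fx f) with h | h | h | h | h
    · exact h
    · rw [h] at h2; exact absurd h2 (by decide)
    · rw [h] at h2; exact absurd h2 (by decide)
    · rw [h] at h2; exact absurd h2 (by decide)
    · obtain ⟨v, hv⟩ := hf1
      exact absurd (fx_eq_top.1 (top_of_card h16 h) v) hv
  have h2 : fx f = ⊥ := AddSubgroup.card_eq_one.1 h1
  have h3 := h0 X hX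
  rw [h2, inf_bot_eq, AddSubgroup.card_bot] at h3
  rcases card_mem h16 X with h | h | h | h | h
  · exact Or.inl (AddSubgroup.card_eq_one.1 h)
  · rw [h] at h3; exact absurd h3 (by decide)
  · rw [h] at h3; exact absurd h3 (by decide)
  · rw [h] at h3; exact absurd h3 (by decide)
  · exact Or.inr (top_of_card h16 h)

theorem five_two (h16 : Nat.card V = 16) (hf : ∀ v, (f^[5]) v = v) (hf1 : ∃ v, f v ≠ v)
    (hc : ∀ v, f (g v) = g (f v)) {q : ℕ} (hq : q = 2 ∨ q = 7) (hg : ∀ v, (g^[q]) v = v) (hg1 : ∃ v, g v ≠ v) :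
    False := by
  have : Finite V := Nat.finite_of_card_ne_zero (by rw [h16]; norm_num)
  have hqp : q.Prime := by rcases hq with rfl | rfl <;> norm_num
  have h2 := card_cong hqp hg ⊤ (fun _ _ => trivial)
  rw [top_inf_eq, AddSubgroup.card_top, h16] at h2
  rcases five_inv h16 hf hf1 (fx g) (fx_stable hc) with h | h
  · rw [h, AddSubgroup.card_bot] at h2
    rcases hq with rfl | rfl
    · exact absurd h2 (by decide)
    · exact absurd h2 (by decide)
  · obtain ⟨v, hv⟩ := hg1
    exact hv (fx_eq_top.1 h v)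

theorem seven (h16 : Nat.card V = 16) (h2V : ∀ v : V, v + v = 0) (hf : ∀ v, (f^[7]) v = v) (hf1 : ∃ v, f v ≠ v)
    (hc : ∀ v, f (g v) = g (f v)) {q : ℕ} (hq : q = 2 ∨ q = 3) (hg : ∀ v, (g^[q]) v = v) (hg1 : ∃ v, g v ≠ v) :
    False := by
  have : Finite V := Nat.finite_of_card_ne_zero (by rw [h16]; norm_num)
  have hp7 : Nat.Prime 7 := by norm_num
  have h1 : Nat.card (fx f) = 2 := by
    have h2 := card_cong hp7 hf ⊤ (fun _ _ => trivial)
    rw [top_inf_eq, AddSubgroup.card_top, h16] at h2
    rcases card_mem h16 (fx f) with h | h | h | h | h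
    · rw [h] at h2; exact absurd h2 (by decide)
    · exact h
    · rw [h] at h2; exact absurd h2 (by decide)
    · rw [h] at h2; exact absurd h2 (by decide)
    · obtain ⟨v, hv⟩ := hf1
      exact absurd (fx_eq_top.1 (top_of_card h16 h) v) hv
  -- `g` is trivial on the fixed vectors of `f`
  have h3 : fx f ≤ fx g := by
    intro v hv
    rw [mem_fx]
    by_cases hv0 : v = 0
    · rw [hv0, map_zero]
    by_contra hne
    have hgv : g v ∈ fx f := by
      rw [mem_fx, hc, hv]
    have hgv0 : g v ≠ 0 := by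
      intro h0
      apply hv0
      have h4 : ∀ n, (g^[n + 1]) v = 0 := by
        intro n
        rw [Function.iterate_succ_apply, h0]
        exact Function.iterate_fixed (map_zero g) n
      rcases hq with rfl | rfl
      · rw [← hg v, h4 1]
      · rw [← hg v, h4 2]
    have h5 : 3 ≤ Nat.card (fx f) := by
      have : Fintype (fx f) := Fintype.ofFinite _
      rw [Nat.card_eq_fintype_card]
      exact Fintype.two_lt_card_iff.2 ⟨⟨0, (fx f).zero_mem⟩, ⟨v, hv⟩, ⟨g v, hgv⟩,
        fun h => hv0 (congrArg Subtype.val h).symm, fun h => hgv0 (congrArg Subtype.val h).symm,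
        fun h => hne (congrArg Subtype.val h).symm⟩
    omega
  have h4 := card_cong hp7 hf (fx g) (fx_stable hc)
  rw [inf_eq_right.2 h3, h1] at h4
  have h5 : Nat.card (fx g) = 2 := by
    rcases card_mem h16 (fx g) with h | h | h | h | h
    · rw [h] at h4; exact absurd h4 (by decide)
    · exact h
    · rw [h] at h4; exact absurd h4 (by decide)
    · rw [h] at h4; exact absurd h4 (by decide)
    · obtain ⟨v, hv⟩ := hg1
      exact absurd (fx_eq_top.1 (top_of_card h16 h) v) hv
  rcases hq with rfl | rfl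
  · -- the involution
    let δ : V →+ V := g + AddMonoidHom.id V
    have hk : δ.ker = fx g := by
      ext v
      rw [AddMonoidHom.mem_ker, mem_fx]
      change g v + v = 0 ↔ g v = v
      constructor
      · intro h
        have : g v = -v := eq_neg_of_add_eq_zero_left h
        rw [this, neg_eq_iff_add_eq_zero]
        exact h2V v
      · intro h
        rw [h]
        exact h2V v
    have hr : δ.range ≤ fx g := by
      rintro _ ⟨v, rfl⟩
      rw [mem_fx]
      change g (g v + v) = g v + v
      rw [map_add]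
      have : g (g v) = v := hg v
      rw [this, add_comm]
    have h6 := AddSubgroup.card_mul_index δ.ker
    rw [AddSubgroup.index_ker, h16, hk, h5] at h6
    have h7 : Nat.card δ.range ≤ 2 := by
      rw [← h5]
      exact AddSubgroup.card_le_of_le hr
    omega
  · have h6 := card_cong Nat.prime_three hg ⊤ (fun _ _ => trivial)
    rw [top_inf_eq, AddSubgroup.card_top, h16, h5] at h6
    exact absurd h6 (by decide)

/-- **commuting elements of prime orders of `GL_4(2)`** -/
theorem orders (h16 : Nat.card V = 16) (h2V : ∀ v : V, v + v = 0) {p q : ℕ} (hp : p = 2 ∨ p = 3 ∨ p = 5 ∨ p = 7)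
    (hq : q = 2 ∨ q = 3 ∨ q = 5 ∨ q = 7) (hpq : p ≠ q) (hf : ∀ v, (f^[p]) v = v) (hf1 : ∃ v, f v ≠ v)
    (hg : ∀ v, (g^[q]) v = v) (hg1 : ∃ v, g v ≠ v) (hc : ∀ v, f (g v) = g (f v)) :
    (p = 3 ∧ (q = 2 ∨ q = 5)) ∨ (q = 3 ∧ (p = 2 ∨ p = 5)) := by
  rcases hp with rfl | rfl | rfl | rfl
  · rcases hq with rfl | rfl | rfl | rfl
    · exact absurd rfl hpq
    · omega
    · exact (five_two h16 hg hg1 (fun v => (hc v).symm) (Or.inl rfl) hf hf1).elim
    · exact (seven h16 h2V hg hg1 (fun v => (hc v).symm) (Or.inl rfl) hf hf1).elim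
  · rcases hq with rfl | rfl | rfl | rfl
    · omega
    · exact absurd rfl hpq
    · omega
    · exact (seven h16 h2V hg hg1 (fun v => (hc v).symm) (Or.inr rfl) hf hf1).elim
  · rcases hq with rfl | rfl | rfl | rfl
    · exact (five_two h16 hf hf1 hc (Or.inl rfl) hg hg1).elim
    · omega
    · exact absurd rfl hpq
    · exact (five_two h16 hf hf1 hc (Or.inr rfl) hg hg1).elim
  · rcases hq with rfl | rfl | rfl | rfl
    · exact (seven h16 h2V hf hf1 hc (Or.inl rfl) hg hg1).elim
    · exact (seven h16 h2V hf hf1 hc (Or.inr rfl) hg hg1).elim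
    · exact (five_two h16 hg hg1 (fun v => (hc v).symm) (Or.inr rfl) hf hf1).elim
    · exact absurd rfl hpq

end fix

end Cfsg.Agent.H930.RC
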